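import Cfsg.Agent.PGU.Fr

set_option autoImplicit false
set_option linter.unusedSectionVars false

/-! Groups with the involution centraliser of `PGU₃(q)`: the Borel subgroup acts linearly. -/

namespace Cfsg.Agent.PGU.Md.Cen

open Cfsg.Agent.Forms Cfsg.Agent.AbInv Subgroup

variable {F : Type*} [Field F] [Fintype F] [CharP F 2] {q : ℕ} {hF : Fintype.card F = q ^ 2} {G : Type*} [Group G]
  {R : Md hF G} {g h t v k : G} {l m : F} [Finite G] (c : R.Cen)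

local notation "σ" => frobq hF
attribute [local simp] frobq_frobq

theorem tpow (tt : t * t = 1) (v : G) (n : ℕ) : (t * v * t) ^ n = t * v ^ n * t := by
  simpa only [inv_eq_of_mul_eq_one_right tt] using conj_pow (a := t) (b := v) (i := n)

include c

theorem Z_le {x : G} (hx : x ∈ R.Z) : x ∈ R.H := le_normalizer hx

theorem swap (hg : g ∉ R.H) {x : G} (hx : x ∈ R.Z) (h1 : x ≠ 1) :
    ∃ t, t * t = 1 ∧ t ∉ R.H ∧ t * g ∈ R.H ∧ t * g * R.s * (t * g)⁻¹ = x := by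
  have hy : g * R.s * g⁻¹ * (g * R.s * g⁻¹) = 1 := by rw [conj_mul, Z_sq s_mem]; simp
  obtain ⟨k, e1, e2⟩ := exists_swap (Z_sq hx) hy (c.odd_mul hx h1 hy fun e => hg (c.mem_H s_mem s_ne e))
  have e3 : (x * (g * R.s * g⁻¹)) ^ k * (g * R.s * g⁻¹) * g * R.s * ((x * (g * R.s * g⁻¹)) ^ k * (g * R.s * g⁻¹) * g)⁻¹ = x := by
    refine Eq.trans ?_ e2; group
  have e4 := c.mem_H s_mem s_ne (e3.symm ▸ hx)
  exact ⟨_, e1, fun e => hg ((R.H.mul_mem_cancel_left e).1 e4), e4, e3⟩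

theorem inv_mem_Z (hg : g ∈ R.H) (h1 : g * g = 1) : g ∈ R.Z := by
  by_contra h2
  obtain ⟨k, -, e⟩ := exists_swap (Z_sq s_mem) h1 (c.odd_mul s_mem s_ne h1 h2)
  exact h2 ((mem_normalizer_iff.1 (pow_mem (mul_mem (c.Z_le s_mem) hg) k) g).2 (e.symm ▸ s_mem))

theorem pow_mem_M (hg : g ∉ R.H) (hv : v ∈ R.H) : Commute R.s (v ^ (q - 1)) := by
  letI := MulAction.compHom G (MulAut.conj.comp R.H.subtype)
  have hs : ∀ (h : R.H) (x : G), h • x = h * x * h⁻¹ := fun _ _ => rfl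
  have h1 : ∀ h : R.H, h ∈ MulAction.stabilizer R.H R.s ↔ Commute R.s h := fun h => by
    rw [MulAction.mem_stabilizer_iff, hs, coe_inv, mul_inv_eq_iff_eq_mul, eq_comm]; rfl
  have : (MulAction.stabilizer R.H R.s).Normal := ⟨fun n hn h => by
    rw [h1] at hn ⊢
    obtain ⟨w, e1, e2, -⟩ := c.sc s_mem s_ne hn
    simpa [mul_assoc] using (conj_comm (e1.comm e2 ((mem_normalizer_iff.1 h⁻¹.2 _).1 s_mem)) h.1).symm⟩
  have h2 : (MulAction.stabilizer R.H R.s).index = q - 1 := by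
    rw [MulAction.index_stabilizer, ← card_fix (hF := hF), ← Nat.card_coe_set_eq]
    have h3 : ∀ b : {c : F // σ c = c ∧ c ≠ 0}, R.i (zz b.1 b.2.1) ∈ MulAction.orbit R.H R.s := fun b => by
      obtain ⟨t, -, -, e1, e2⟩ := c.swap hg (x := R.i (zz b.1 b.2.1)) ⟨_, rfl, rfl⟩ (i_ne_one b.2.2)
      exact ⟨⟨_, e1⟩, e2⟩
    refine (Nat.card_eq_of_bijective (fun b => ⟨_, h3 b⟩) ⟨fun a b e => ?_, ?_⟩).symm
    · exact Subtype.ext (congrArg Qg.b (R.inj (Subtype.mk.inj e)))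
    · rintro ⟨_, h, rfl⟩
      obtain ⟨u, hu, e⟩ := (mem_normalizer_iff.1 h.2 _).1 (s_mem (R := R))
      exact ⟨⟨u.b, Qg.fix hu, Qg.ne_one.1 fun e' => s_ne (R := R) (by simpa [e'] using e.symm)⟩,
        Subtype.ext ((congrArg R.i (Qg.ext (x := zz u.b (Qg.fix hu)) (y := u) hu.symm rfl)).trans e)⟩
  exact (h1 _).1 (h2 ▸ (MulAction.stabilizer R.H R.s).pow_index_mem ⟨v, hv⟩)

variable (tt : t * t = 1) (tH : t ∉ R.H)
include tt tH

theorem odd_D (h1 : v ∈ R.H) (h2 : t * v * t ∈ R.H) : Odd (orderOf v) := by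
  rw [← Nat.not_even_iff_odd]
  intro h
  obtain ⟨k, hk⟩ := exists_inv_pow h (orderOf_pos _).ne'
  exact tH (c.mem_H (c.inv_mem_Z (pow_mem h1 k) hk.1) hk.2 (c.inv_mem_Z (by
    simpa only [inv_eq_of_mul_eq_one_right tt, tpow tt] using pow_mem h2 k) (hk.conj t).1))

theorem eq_one_D (h1 : R.Sc v 1) (h2 : t * v * t ∈ R.H) : v = 1 := by
  obtain ⟨u, rfl⟩ := c.Q_of_sc h1
  exact eq_one_of_odd (c.odd_D tt tH (c.sl_mem h1) h2) (k := 2) (by rw [← map_pow, show 2 ^ 2 = 4 from rfl, Qg.pow_four, map_one])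

theorem comm_t (h1 : R.Sc v l) (hl : l * σ l = 1) (h2 : t * v * t ∈ R.H) : Commute v t := by
  have e1 : v ^ (q + 1) = 1 := c.eq_one_D tt tH (by simpa [pow_succ', ← frobq_apply hF, hl] using h1.pow (q + 1)) (tpow tt v _ ▸ pow_mem h2 _)
  obtain ⟨n, hn⟩ := even_q hF
  have hq := two_le_q hF
  have e2 : (v ^ (q - 1)) ^ n = v := by
    obtain ⟨n, rfl⟩ : ∃ m, n = m + 1 := ⟨n - 1, by omega⟩
    rw [← pow_mul, show (q - 1) * (n + 1) = (q + 1) * n + 1 by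
      rw [show q - 1 = 2 * n + 1 by omega, hn]; ring, pow_succ, pow_mul, e1, one_pow, one_mul]
  have e3 := conj_comm ((c.pow_mem_M tH h2).pow_right n) t
  rw [tpow tt, tpow tt, e2, inv_eq_of_mul_eq_one_right tt, show t * (t * v * t) * t = v by
    simp only [← mul_assoc, tt, one_mul, mul_assoc v, mul_one]] at e3
  obtain ⟨k, hk⟩ := c.odd_mul s_mem s_ne tt fun e => tH (c.Z_le e)
  have e4 : Commute v ((R.s * t) ^ 2) := by
    simpa only [mul_assoc, pow_two] using (h1.comm hl s_mem).mul_right e3.symm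
  have e5 := e4.pow_right (k + 1)
  rw [← pow_mul, show 2 * (k + 1) = 2 * k + 1 + 1 by ring, ← hk, pow_succ, pow_orderOf_eq_one, one_mul] at e5
  simpa [← mul_assoc, Z_sq s_mem] using (h1.comm hl s_mem).mul_right e5

theorem exists_k {b : F} (hb : σ b = b) (h0 : b ≠ 0) : ∃ k ∈ R.H, t * k * t = k⁻¹ ∧ k * R.s * k⁻¹ = R.i (zz b hb) := by
  obtain ⟨t', e1, -, e2, e3⟩ := c.swap tH (x := R.i (zz b hb)) ⟨_, rfl, rfl⟩ (i_ne_one h0)
  exact ⟨_, e2, by rw [mul_inv_rev, inv_eq_of_mul_eq_one_right tt, inv_eq_of_mul_eq_one_right e1, mul_assoc, mul_assoc, tt, mul_one], e3⟩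

theorem split (hv : v ∈ R.H) : ∃ k ∈ R.H, ∃ m w, t * k * t = k⁻¹ ∧ R.Sc m w ∧ w * σ w = 1 ∧ v = k * m ∧
    (t * v * t ∈ R.H → t * m * t ∈ R.H) := by
  obtain ⟨u, hu, e⟩ := (mem_normalizer_iff.1 hv _).1 (s_mem (R := R))
  obtain ⟨k, e1, e2, e3⟩ := c.exists_k tt tH (Qg.fix hu) (Qg.ne_one.1 fun e' => s_ne (R := R) (by simpa [e'] using e.symm))
  rw [show zz u.b (Qg.fix hu) = u from Qg.ext hu.symm rfl, e] at e3
  obtain ⟨w, e4, e5, -⟩ := c.sc (g := k⁻¹ * v) s_mem s_ne (by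
    change _ = _; rw [show R.s * (k⁻¹ * v) = k⁻¹ * (k * R.s * k⁻¹) * v by group, e3]; group)
  refine ⟨k, e1, _, w, e2, e4, e5, by simp, fun h => ?_⟩
  have := mul_mem (inv_mem (e2.symm ▸ inv_mem e1 : t * k * t ∈ R.H)) h
  simpa [inv_eq_of_mul_eq_one_right tt, mul_assoc, ← mul_assoc t t, tt] using this

theorem comm_s {k' : G} (h1 : k ∈ R.H) (h2 : t * k * t = k⁻¹) (h3 : k' ∈ R.H) (h4 : t * k' * t = k'⁻¹) :
    k * (k' * R.s * k'⁻¹) * k⁻¹ = k' * (k * R.s * k⁻¹) * k'⁻¹ := by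
  have e0 : t * (k * k') * t = k⁻¹ * k'⁻¹ := by rw [← h2, ← h4]; simp only [mul_assoc, ← mul_assoc t t, tt, one_mul]
  obtain ⟨k'', e1, m, w, e2, e3, e4, e5, e6⟩ := c.split tt tH (mul_mem h1 h3)
  have e7 := c.comm_t tt tH e3 e4 (e6 (e0 ▸ mul_mem (inv_mem h1) (inv_mem h3)))
  have e8 : k' * k = m⁻¹ * k'' := by
    rw [← inv_inj, mul_inv_rev, ← e0, e5, mul_assoc, mul_assoc, e7.eq, ← mul_assoc, ← mul_assoc, e2]; group
  calc _ = k * k' * R.s * (k * k')⁻¹ := by group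
    _ = k'' * (m * R.s * m⁻¹) * k''⁻¹ := by rw [e5]; group
    _ = m⁻¹ * (k'' * R.s * k''⁻¹ * m) := by
      rw [← (e3.comm e4 ((mem_normalizer_iff.1 e1 _).1 s_mem)).eq, (e3.comm e4 s_mem).eq]; group
    _ = k' * k * R.s * (k' * k)⁻¹ := by rw [e8]; group
    _ = _ := by group

theorem comm_b {k' : G} {γ δ : F →+* F} (h1 : R.Sl k l γ) (h2 : t * k * t = k⁻¹) (h3 : R.Sl k' m δ) (h4 : t * k' * t = k'⁻¹) :
    l * σ l * γ (m * σ m) = m * σ m * δ (l * σ l) := by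
  have e := c.comm_s tt tH (c.sl_mem h1) h2 (c.sl_mem h3) h4
  obtain ⟨u, a1, -⟩ := h1 (zz 1 (map_one _))
  obtain ⟨v, a2, -⟩ := h3 (zz 1 (map_one _))
  obtain ⟨u', a3, -⟩ := h3 u
  obtain ⟨v', a4, -⟩ := h1 v
  rw [s, a1, a2, a3, a4] at e
  have := congrArg Qg.b (R.inj e)
  rw [(h1.b (h3.b rfl a2).1 a4).2, (h3.b (h1.b rfl a1).1 a3).2, (h3.b rfl a2).2, (h1.b rfl a1).2] at this
  simpa only [zz_b, map_one, mul_one] using this

theorem exists_sl {b : F} (hb : σ b = b) (h0 : b ≠ 0) : ∃ k l γ, R.Sl k l γ ∧ t * k * t = k⁻¹ ∧ l * σ l = b := by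
  obtain ⟨k, e1, e2, e3⟩ := c.exists_k tt tH hb h0
  obtain ⟨l, γ, -, e4⟩ := c.sl e1
  exact ⟨k, l, γ, e4, e2, by simpa using (e4.b rfl e3).2.symm⟩

theorem sc_k (h1 : k ∈ R.H) (h2 : t * k * t = k⁻¹) : ∃ l, R.Sc k l := by
  obtain ⟨l, γ, h0, h3⟩ := c.sl h1
  by_cases h : l * σ l = 1
  · obtain ⟨v, e, -⟩ := h3 (zz 1 (map_one _))
    rw [show v = zz 1 (map_one _) from Qg.ext (h3.b rfl e).1 (by simpa [h] using (h3.b rfl e).2)] at e
    exact (c.sc s_mem s_ne (mul_inv_eq_iff_eq_mul.1 e).symm).imp fun _ h => h.1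
  obtain ⟨k2, l2, γ2, e1, e2, e3⟩ := c.exists_sl tt tH (b := l * σ l + 1) (by simp [mul_comm]) (CharTwo.add_eq_zero.not.2 h)
  have a : ∀ x, σ x = x → x ≠ 0 → (l * σ l + 1) * γ2 x = l * σ l * γ x + x := fun x hx hx0 => by
    obtain ⟨k3, l3, γ3, e4, e5, e6⟩ := c.exists_sl tt tH hx hx0
    have e7 := c.comm_b tt tH e1 e2 e4 e5
    have e8 := c.comm_b tt tH h3 h2 e4 e5
    rw [e6] at e7 e8
    rw [e8, ← e3, e7, e3, map_add, map_one, mul_add, mul_one]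
  have b : ∀ x, σ x = x → γ x = x := fun x hx => by
    by_cases hx0 : x = 0
    · simp [hx0]
    have e4 := a x hx hx0
    have e5 := a (x * x) (by simp [hx]) (by simpa)
    rw [map_mul, map_mul] at e5
    refine sq_inj (mul_left_cancel₀ (show l * σ l ≠ 0 by simpa) ?_)
    linear_combination ((l * σ l + 1) * γ2 x + l * σ l * γ x + x) * e4 - (l * σ l + 1) * e5
      + (l * σ l * (γ x * x - x * x)) * (CharTwo.two_eq_zero (R := F))
  have d : γ.comp γ = RingHom.id F := RingHom.ext fun x => by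
    have e4 : ∀ x, γ (σ x) = σ (γ x) := fun x => by simp only [frobq_apply, map_pow]
    have e5 := b (x + σ x) (by simp [add_comm])
    have e6 := b (x * σ x) (by simp [mul_comm])
    rw [map_add] at e5
    rw [map_mul] at e6
    rcases mul_eq_zero.1 (show (γ x - x) * (γ x - σ x) = 0 by linear_combination γ x * e5 - e6) with e | e <;>
      rw [sub_eq_zero] at e
    · simp [e]
    · rw [RingHom.comp_apply, e, e4, e, frobq_frobq, RingHom.id_apply]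
  obtain ⟨n, hn⟩ := c.odd_D tt tH h1 (h2 ▸ inv_mem h1)
  have e4 := Sc.pow (d ▸ h3.mul h3 : R.Sc (k * k) _) (n + 1)
  rw [← pow_two, ← pow_mul, show 2 * (n + 1) = 2 * n + 1 + 1 by ring, ← hn, pow_succ, pow_orderOf_eq_one, one_mul] at e4
  exact ⟨_, e4⟩

theorem sc_H (h1 : h ∈ R.H) : ∃ l, l ≠ 0 ∧ R.Sc h l := by
  obtain ⟨k, e1, m, w, e2, e3, -, e5, -⟩ := c.split tt tH h1
  obtain ⟨l, e6⟩ := c.sc_k tt tH e1 e2
  obtain ⟨l', γ, e7, e8⟩ := c.sl h1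
  obtain ⟨u, hu⟩ := exists_a (hF := hF) 1
  obtain ⟨v, a1, a2⟩ := e8 u
  obtain ⟨v', a3, a4⟩ := (e5 ▸ e6.mul e3 : R.Sc h _) u
  exact ⟨_, fun e => e7 (by simpa [a2, a4, hu, e] using congrArg Qg.a (R.inj (a1.symm.trans a3))), e5 ▸ e6.mul e3⟩

theorem fix_k (h0 : l ≠ 0) (h1 : R.Sc k l) (h2 : t * k * t = k⁻¹) : σ l = l := by
  have hq := two_le_q hF
  have e0 : l ^ (q - 1) = σ l / l := by
    rw [eq_div_iff h0, ← pow_succ, Nat.sub_add_cancel (by omega), frobq_apply]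
  have e1 : t * k ^ (q - 1) * t = (k ^ (q - 1))⁻¹ := by rw [← tpow tt, h2, inv_pow]
  have e2 := pow_mem (c.sl_mem h1) (q - 1)
  have e3 := c.comm_t tt tH (h1.pow (q - 1)) (by
    rw [e0, map_div₀, frobq_frobq, div_mul_div_cancel₀ h0, div_self (by simpa)]) (e1 ▸ inv_mem e2)
  have e4 := eq_one_of_odd (c.odd_D tt tH e2 (e1 ▸ inv_mem e2)) (k := 1) (by
    rw [← e3.eq, mul_assoc, tt, mul_one] at e1
    rw [pow_one, pow_two]; exact eq_inv_iff_mul_eq_one.1 e1)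
  exact (div_eq_one_iff_eq h0).1 (e0 ▸ (h1.pow (q - 1)).unique (e4 ▸ sc_one))

theorem inv_k (h1 : R.Sc k l) (hl : σ l = l) (h2 : t * k * t ∈ R.H) : t * k * t = k⁻¹ := by
  obtain ⟨k', e1, m, w, e2, e3, e4, e5, e6⟩ := c.split tt tH (c.sl_mem h1)
  obtain ⟨l', e7, e8⟩ := c.sc_H tt tH e1
  have e9 := c.fix_k tt tH e7 e8 e2
  obtain rfl := h1.unique (e5 ▸ e8.mul e3)
  rw [map_mul, e9, mul_right_inj' e7] at hl
  obtain rfl : w = 1 := sq_inj (by rw [mul_one, ← e4, hl])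
  rw [e5, c.eq_one_D tt tH e3 (e6 h2), mul_one, e2]

end Cfsg.Agent.PGU.Md.Cen
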