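import Cfsg.Agent.PGU.Qg
import Cfsg.Agent.AbInv.Grp

set_option autoImplicit false
set_option linter.unusedSectionVars false

/-! Groups with the involution centraliser of `PGU₃(q)`: the Borel subgroup. -/

namespace Cfsg.Agent.PGU

open Cfsg.Agent.Forms Cfsg.Agent.AbInv Subgroup

variable {F : Type*} [Field F] [Fintype F] [CharP F 2] {q : ℕ} {hF : Fintype.card F = q ^ 2} {G : Type*} [Group G]

local notation "σ" => frobq hF

theorem inv_conj_pow {x y : G} (hx : x * x = 1) (hy : y * y = 1) (k : ℕ) : y * (x * y) ^ k * y = ((x * y) ^ k)⁻¹ := by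
  rw [← inv_pow, mul_inv_rev, inv_eq_of_mul_eq_one_right hx]
  nth_rewrite 3 [← inv_eq_of_mul_eq_one_right hy]
  rw [← conj_pow, ← mul_assoc, mul_inv_cancel_right, inv_eq_of_mul_eq_one_right hy]

theorem exists_swap {x y : G} (hx : x * x = 1) (hy : y * y = 1) (h : Odd (orderOf (x * y))) :
    ∃ k, (x * y) ^ k * y * ((x * y) ^ k * y) = 1 ∧ (x * y) ^ k * y * ((x * y) ^ k)⁻¹ = x := by
  obtain ⟨k, hk⟩ := h
  have h1 := inv_conj_pow hx hy (k + 1)
  refine ⟨k + 1, by rw [mul_assoc, ← mul_assoc y, h1, mul_inv_cancel], ?_⟩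
  rw [← h1, mul_assoc, ← mul_assoc y, ← mul_assoc y, hy, one_mul, ← mul_assoc, ← pow_add,
    show k + 1 + (k + 1) = 2 * k + 1 + 1 by ring, ← hk, pow_succ, pow_orderOf_eq_one, one_mul, mul_assoc, hy, mul_one]

theorem eq_one_of_odd {v : G} (h : Odd (orderOf v)) {k : ℕ} (h1 : v ^ 2 ^ k = 1) : v = 1 :=
  orderOf_eq_one_iff.1 (((Nat.coprime_two_right.2 h).pow_right k).eq_one_of_dvd (orderOf_dvd_of_pow_eq_one h1))

variable (hF G) in
/-- a model of the centraliser -/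
structure Md where
  /-- unipotent part -/
  i : Qg hF →* G
  /-- torus part -/
  j : Wg hF →* G
  inj : Function.Injective i
  cj : ∀ w u, j w * i u * (j w)⁻¹ = i (act (w.1 : F) u)

namespace Md

variable (R : Md hF G)

/-- semilinear action -/
def Sl (h : G) (l : F) (γ : F →+* F) : Prop := ∀ u, ∃ v, h * R.i u * h⁻¹ = R.i v ∧ v.a = l * γ u.a

/-- linear action -/
abbrev Sc (h : G) (l : F) : Prop := R.Sl h l (RingHom.id F)

variable {R} {g h : G} {l m : F} {γ δ : F →+* F}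

theorem Sl.mul (h1 : R.Sl g l γ) (h2 : R.Sl h m δ) : R.Sl (g * h) (l * γ m) (γ.comp δ) := fun u => by
  obtain ⟨v, e1, e2⟩ := h2 u
  obtain ⟨w, e3, e4⟩ := h1 v
  exact ⟨w, by rw [← e3, ← e1]; group, by simp [e4, e2, mul_assoc]⟩

theorem Sc.mul (h1 : R.Sc g l) (h2 : R.Sc h m) : R.Sc (g * h) (l * m) := Sl.mul h1 h2

theorem sc_i (u : Qg hF) : R.Sc (R.i u) 1 := fun v =>
  ⟨u * v * u⁻¹, by simp, by simp [add_right_comm, CharTwo.add_self_eq_zero]⟩

theorem sc_one : R.Sc 1 1 := map_one R.i ▸ sc_i 1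

theorem sc_j (w : Wg hF) : R.Sc (R.j w) w.1 := fun u => ⟨_, R.cj w u, rfl⟩

theorem Sc.pow (h1 : R.Sc g l) (n : ℕ) : R.Sc (g ^ n) (l ^ n) := by
  induction n with
  | zero => simpa using sc_one
  | succ n ih => simpa only [pow_succ] using ih.mul h1

theorem Sc.unique (h1 : R.Sc g l) (h2 : R.Sc g m) : l = m := by
  obtain ⟨u, hu⟩ := exists_a (hF := hF) 1
  obtain ⟨v, e1, e2⟩ := h1 u
  obtain ⟨w, e3, e4⟩ := h2 u
  simpa [e2, e4, hu] using congrArg Qg.a (R.inj (e1.symm.trans e3))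

theorem Sl.b (h1 : R.Sl g l γ) {u v : Qg hF} (hu : u.a = 0) (e : g * R.i u * g⁻¹ = R.i v) :
    v.a = 0 ∧ v.b = l * σ l * γ u.b := by
  obtain ⟨a, ha⟩ := exists_norm_eq hF _ (Qg.fix hu)
  obtain ⟨w, rfl⟩ := exists_a (hF := hF) a
  obtain ⟨x, e1, e2⟩ := h1 w
  obtain rfl : u = w * w := Qg.ext (hu.trans (sq_a w).symm) (ha.symm.trans (sq_b w).symm)
  obtain rfl : v = x * x := R.inj (by rw [← e, map_mul, map_mul, ← e1, conj_mul])
  refine ⟨sq_a x, ?_⟩
  simp only [sq_b, e2, map_mul, frobq_apply, map_pow]; ring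

theorem card_eq [Finite G] (h : ∀ g, ∃ u w, g = R.i u * R.j w) : Nat.card G = Nat.card (Qg hF × Wg hF) := by
  refine (Nat.card_eq_of_bijective (fun p => R.i p.1 * R.j p.2) ⟨?_, fun g => ?_⟩).symm
  · rintro ⟨u, w⟩ ⟨u', w'⟩ (e : R.i u * R.j w = R.i u' * R.j w')
    have := (sc_i (R := R) u').mul (sc_j w')
    rw [← e] at this
    obtain rfl : w = w' := Subtype.ext (Units.ext (by simpa using ((sc_i u).mul (sc_j w)).unique this))
    rw [R.inj (mul_right_cancel e)]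
  · obtain ⟨u, w, rfl⟩ := h g; exact ⟨(u, w), rfl⟩

variable (R)

/-- the centre of the Sylow subgroup -/
def Z : Subgroup G where
  carrier := {g | ∃ u, u.a = 0 ∧ R.i u = g}
  one_mem' := ⟨1, rfl, map_one _⟩
  mul_mem' := by rintro _ _ ⟨u, hu, rfl⟩ ⟨v, hv, rfl⟩; exact ⟨u * v, by simp [hu, hv], map_mul _ _ _⟩
  inv_mem' := by rintro _ ⟨u, hu, rfl⟩; exact ⟨u⁻¹, hu, map_inv _ _⟩

/-- the Borel subgroup -/
def H : Subgroup G := normalizer R.Z

/-- a central involution -/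
def s : G := R.i (zz 1 (map_one _))

/-- the centralisers of the involutions are as expected -/
def Cen : Prop := ∀ x ∈ R.Z, x ≠ 1 → ∀ g, Commute x g → ∃ u w, g = R.i u * R.j w

variable {R}

theorem Z_sq {x : G} (h : x ∈ R.Z) : x * x = 1 := by
  obtain ⟨u, hu, rfl⟩ := h
  rw [← map_mul, Qg.sq_eq_one.2 hu, map_one]

theorem i_ne_one {u : Qg hF} (h : u.b ≠ 0) : R.i u ≠ 1 := fun e => Qg.ne_one.2 h (R.inj (e.trans (map_one _).symm))

theorem s_mem : R.s ∈ R.Z := ⟨_, rfl, rfl⟩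
theorem s_ne : R.s ≠ 1 := i_ne_one one_ne_zero

theorem Sc.comm (h1 : R.Sc g l) (h2 : l * σ l = 1) {x : G} (hx : x ∈ R.Z) : Commute g x := by
  obtain ⟨u, hu, rfl⟩ := hx
  obtain ⟨v, e, -⟩ := h1 u
  obtain ⟨e1, e2⟩ := h1.b hu e
  rw [show v = u from Qg.ext (e1.trans hu.symm) (by simpa [h2] using e2)] at e
  exact mul_inv_eq_iff_eq_mul.1 e

namespace Cen

variable (c : R.Cen)
include c

theorem sc {x : G} (hx : x ∈ R.Z) (h1 : x ≠ 1) (h2 : Commute x g) : ∃ w, R.Sc g w ∧ w * σ w = 1 ∧ (w = 1 → g ∈ R.i.range) := by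
  obtain ⟨u, w, rfl⟩ := c x hx h1 g h2
  exact ⟨w.1, by simpa using (sc_i u).mul (sc_j w), w.2, fun e => ⟨u, by
    rw [show w = 1 from Subtype.ext (Units.ext e), map_one, mul_one]⟩⟩

theorem mem_Q {x : G} (hx : x ∈ R.Z) (h1 : x ≠ 1) (h2 : Commute x g) {k : ℕ} (h3 : g ^ 2 ^ k = 1) : g ∈ R.i.range := by
  obtain ⟨w, e1, e2, e3⟩ := c.sc hx h1 h2
  exact e3 (eq_one_of_pow e2 ((e1.pow _).unique (h3 ▸ sc_one)))

theorem mem_Z {x : G} (hx : x ∈ R.Z) (h1 : x ≠ 1) (h2 : Commute x g) (h3 : g * g = 1) : g ∈ R.Z := by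
  obtain ⟨u, rfl⟩ := c.mem_Q hx h1 h2 (k := 1) (by rw [pow_one, pow_two, h3])
  exact ⟨u, Qg.sq_eq_one.1 (R.inj (by rw [map_mul, h3, map_one])), rfl⟩

theorem mem_H {x : G} (hx : x ∈ R.Z) (h1 : x ≠ 1) (h2 : g * x * g⁻¹ ∈ R.Z) : g ∈ R.H := by
  have a : ∀ {g x : G}, x ∈ R.Z → x ≠ 1 → g * x * g⁻¹ ∈ R.Z → ∀ y ∈ R.Z, g * y * g⁻¹ ∈ R.Z := fun {g x} hx h1 h2 y hy =>
    c.mem_Z h2 (by simpa using h1) (conj_comm (by obtain ⟨u, -, rfl⟩ := hx; exact (sc_i u).comm (by simp) hy) g)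
      (by rw [conj_mul, Z_sq hy]; simp)
  exact mem_normalizer_iff.2 fun y => ⟨a hx h1 h2 y, fun hy => by
    simpa [mul_assoc] using a (g := g⁻¹) h2 (by simpa using h1) (by simpa [mul_assoc] using hx) _ hy⟩

theorem sl_mem (h1 : R.Sl g l γ) : g ∈ R.H := by
  obtain ⟨v, e, -⟩ := h1 (zz 1 (map_one _))
  exact c.mem_H s_mem s_ne ⟨v, (h1.b rfl e).1, e.symm⟩

theorem Q_of_sc (h1 : R.Sc g 1) : g ∈ R.i.range := by
  obtain ⟨w, e1, -, e3⟩ := c.sc s_mem s_ne (h1.comm (by simp) s_mem).symm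
  exact e3 (e1.unique h1)

theorem conj_Q (hg : g ∈ R.H) (u : Qg hF) : ∃ v, R.i v = g * R.i u * g⁻¹ :=
  c.mem_Q ((mem_normalizer_iff.1 hg _).1 s_mem) (by simpa using s_ne) (conj_comm ((sc_i u).comm (by simp) s_mem).symm g)
    (k := 2) (by rw [conj_pow, ← map_pow, show 2 ^ 2 = 4 from rfl, Qg.pow_four]; simp)

theorem sl (hg : g ∈ R.H) : ∃ l γ, l ≠ 0 ∧ R.Sl g l γ := by
  choose κ hκ using c.conj_Q hg
  choose e he using exists_a (hF := hF)
  have h1 : ∀ u v, κ (u * v) = κ u * κ v := fun u v => R.inj (by simp only [map_mul, hκ, conj_mul])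
  have h0 : ∀ u, (κ u).a = 0 ↔ u.a = 0 := fun u => by
    rw [← Qg.sq_eq_one, ← Qg.sq_eq_one, ← h1, ← R.inj.eq_iff, hκ, map_one, conj_eq_one_iff, map_eq_one_iff _ R.inj]
  have h2 : ∀ u, (κ u).a = (κ (e u.a)).a := fun u => by
    have := (h0 (u * e u.a)).2 (by simp [he, CharTwo.add_self_eq_zero])
    rwa [h1, mul_a, CharTwo.add_eq_zero] at this
  set θ := fun a => (κ (e a)).a
  have h3 : ∀ a b, θ (a + b) = θ a + θ b := fun a b => by
    have := h2 (e a * e b)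
    rw [h1, mul_a, mul_a, he, he] at this
    exact this.symm
  have h4 : θ 1 ≠ 0 := (h0 _).not.2 (by simp [he])
  have h5 : θ 0 = 0 := (h0 _).2 (he 0)
  let P : Subring F :=
    { carrier := {x | ∀ a, θ (x * a) * θ 1 = θ x * θ a}
      mul_mem' := fun {x y} hx hy a => mul_right_cancel₀ h4 (by
        rw [mul_assoc x, hx, mul_assoc, hy, mul_right_comm, hx, mul_assoc])
      one_mem' := fun a => by rw [one_mul, mul_comm]
      add_mem' := fun {x y} hx hy a => by rw [add_mul, h3, h3, add_mul, add_mul, hx, hy]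
      zero_mem' := fun a => by simp [h5]
      neg_mem' := fun {x} hx => by rwa [CharTwo.neg_eq] }
  have h6 := subring_top hF P fun w hw a => by
    let w' : Wg hF := ⟨Units.mk0 w (left_ne_zero_of_mul_eq_one hw), hw⟩
    obtain ⟨m, e1, -⟩ := c.sc ((mem_normalizer_iff.1 hg _).1 s_mem) (by simpa using s_ne)
      (conj_comm ((sc_j w').comm hw s_mem).symm g)
    have : ∀ a, θ (w * a) = m * θ a := fun a => by
      obtain ⟨v, e2, e3⟩ := e1 (κ (e a))
      replace e2 : R.i (κ (act w (e a))) = R.i v := by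
        rw [← e2, hκ, hκ, show act w (e a) = act (w'.1 : F) (e a) from rfl, ← R.cj]; group
      have := h2 (act w (e a))
      rw [act_a, he] at this
      exact this.symm.trans (R.inj e2 ▸ e3)
    rw [this, ← mul_one w, this]; ring
  exact ⟨θ 1, ⟨⟨⟨fun x => θ x / θ 1, div_self h4⟩, fun x y => by
    have := h6 x y; field_simp; linear_combination this⟩, by simp [h5], fun x y => by simp [h3, add_div]⟩, h4,
    fun u => ⟨κ u, (hκ u).symm, (h2 u).trans (mul_div_cancel₀ _ h4).symm⟩⟩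

variable [Finite G]

theorem odd_mul {x y : G} (hx : x ∈ R.Z) (h1 : x ≠ 1) (hy : y * y = 1) (h2 : y ∉ R.Z) : Odd (orderOf (x * y)) := by
  rw [← Nat.not_even_iff_odd]
  intro h
  obtain ⟨k, hk⟩ := exists_inv_pow h (orderOf_pos _).ne'
  have h3 := inv_conj_pow (Z_sq hx) hy k
  rw [hk.inv] at h3
  have h4 : Commute ((x * y) ^ k) y := by
    change _ = _; nth_rewrite 1 [← h3]; rw [mul_assoc, hy, mul_one]
  have h5 : Commute ((x * y) ^ k) x := by
    simpa [mul_assoc, hy] using ((Commute.refl (x * y)).pow_left k).mul_right h4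
  exact h2 (c.mem_Z (c.mem_Z hx h1 h5.symm hk.1) hk.2 h4 hy)

end Cen

end Md

end Cfsg.Agent.PGU
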