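import Cfsg.Agent.PGU.Tau
import Cfsg.Agent.HForm.USpec

set_option autoImplicit false
set_option linter.unusedSectionVars false
set_option linter.unusedSimpArgs false

/-! The model inside `PGU₃(q)` and the characterisation. -/

namespace Cfsg.Agent.PGU

open Cfsg.Agent.Forms Cfsg.Agent.HForm Cfsg.Agent.AbInv Subgroup Matrix

variable {F : Type*} [Field F] [Fintype F] [CharP F 2] {q : ℕ} {hF : Fintype.card F = q ^ 2}

local notation "σ" => frobq hF
local notation "P" => (!![1, 1, 0; 1, 1, 1; 0, 1, 1] : Matrix (Fin 3) (Fin 3) F)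
local notation "J" => (!![0, 0, 1; 0, 1, 0; 1, 0, 0] : Matrix (Fin 3) (Fin 3) F)
attribute [local simp] frobq_frobq CharTwo.add_self_eq_zero

theorem PP : P * P = J := by ext i j; fin_cases i <;> fin_cases j <;> simp
theorem JJ : J * J = 1 := by ext i j; fin_cases i <;> fin_cases j <;> simp
theorem PJP : P * J * P = 1 := by rw [← PP, ← mul_assoc, mul_assoc, PP, JJ]
theorem PPJ : P * (P * J) = 1 := by rw [← mul_assoc, PP, JJ]
theorem PT : Pᵀ = P := by ext i j; fin_cases i <;> fin_cases j <;> simp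
theorem JT : Jᵀ = J := by ext i j; fin_cases i <;> fin_cases j <;> simp
theorem Pσ : (P).map σ = P := by ext i j; fin_cases i <;> fin_cases j <;> simp
theorem Jσ : (J).map σ = J := by ext i j; fin_cases i <;> fin_cases j <;> simp

/-- change of basis -/
def cP : Matrix (Fin 3) (Fin 3) F →* Matrix (Fin 3) (Fin 3) F where
  toFun M := P * M * (P * J)
  map_one' := by rw [mul_one, PPJ]
  map_mul' M N := by rw [mul_assoc (P * M), ← mul_assoc (P * J), ← mul_assoc (P * J), PJP, one_mul, ← mul_assoc (P * M), mul_assoc P M]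

theorem cP_surj (M : Matrix (Fin 3) (Fin 3) F) : cP (P * J * M * P) = M := by
  change P * _ * _ = _
  rw [← mul_assoc P, ← mul_assoc P, PPJ, one_mul, mul_assoc, PPJ, mul_one]

theorem cP_inj : Function.Injective (cP (F := F)) := fun M N (e : P * M * (P * J) = P * N * (P * J)) => by
  simpa only [mul_assoc _ (P * J), mul_assoc (P * J) _ P, ← mul_assoc (P * J) P, PJP, one_mul, mul_one] using congrArg (P * J * · * P) e

theorem cP_smul (c : F) (M : Matrix (Fin 3) (Fin 3) F) : cP (c • M) = c • cP M := by simp only [cP, MonoidHom.coe_mk, OneHom.coe_mk, Matrix.mul_smul, Matrix.smul_mul]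

theorem cP_unit (M : Matrix (Fin 3) (Fin 3) F) : (cP M)ᵀ * (cP M).map σ = 1 ↔ Mᵀ * J * M.map σ = J := by
  have : (cP M)ᵀ * (cP M).map σ = cP (J * (Mᵀ * J * M.map σ)) := by
    simp only [cP, MonoidHom.coe_mk, OneHom.coe_mk, transpose_mul, Matrix.map_mul, PT, JT, Pσ, Jσ, ← PP, mul_assoc]
  rw [this, ← cP.map_one, cP_inj.eq_iff]
  exact ⟨fun e => by simpa only [← mul_assoc, JJ, one_mul, mul_one] using congrArg (J * ·) e, fun e => by rw [e, JJ]⟩

/-- homomorphisms to the unitary group -/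
def lift {A : Type*} [Group A] (f : A →* Matrix (Fin 3) (Fin 3) F) (h : ∀ a, (f a)ᵀ * J * (f a).map σ = J) : A →* GU 3 F q :=
  (cP.comp f).toHomUnits.codRestrict _ fun a => (mem_GU_iff 3 (frobq_apply hF) _).2 ((cP_unit _).2 (h a))

variable (hF) in
/-- unipotent matrices -/
def mi : Qg hF →* GU 3 F q := lift (hF := hF)
  { toFun u := !![1, u.a, u.b; 0, 1, σ u.a; 0, 0, 1]
    map_one' := by ext i j; fin_cases i <;> fin_cases j <;> simp
    map_mul' u v := by ext i j; fin_cases i <;> fin_cases j <;> simp <;> ring }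
  fun u => by
    ext i j; fin_cases i <;> fin_cases j <;> simp [Matrix.mul_apply, Fin.sum_univ_three]
    linear_combination u.h + u.a * σ u.a * CharTwo.two_eq_zero (R := F)

variable (hF) in
/-- diagonal matrices -/
def mj : Wg hF →* GU 3 F q := lift (hF := hF)
  { toFun w := !![1, 0, 0; 0, σ w.1, 0; 0, 0, 1]
    map_one' := by ext i j; fin_cases i <;> fin_cases j <;> simp
    map_mul' u v := by ext i j; fin_cases i <;> fin_cases j <;> simp }
  fun w => by
    ext i j; fin_cases i <;> fin_cases j <;> simp [Matrix.mul_apply, Fin.sum_univ_three]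
    exact (mul_comm _ _).trans w.2

theorem mi_val (u : Qg hF) : ((mi hF u).1 : Matrix (Fin 3) (Fin 3) F) = cP !![1, u.a, u.b; 0, 1, σ u.a; 0, 0, 1] := rfl
theorem mj_val (w : Wg hF) : ((mj hF w).1 : Matrix (Fin 3) (Fin 3) F) = cP !![1, 0, 0; 0, σ w.1, 0; 0, 0, 1] := rfl

variable (hF) in
/-- the model in `PGU₃(q)` -/
def R0 : Md hF (GU 3 F q ⧸ center (GU 3 F q)) where
  i := (QuotientGroup.mk' _).comp (mi hF)
  j := (QuotientGroup.mk' _).comp (mj hF)
  inj := (injective_iff_map_eq_one _).2 fun u e => by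
    obtain ⟨c, e⟩ := (gu_mem_center_iff hF le_rfl _).1 ((QuotientGroup.eq_one_iff _).1 e)
    rw [mi_val, ← cP.map_one, ← cP_smul] at e
    exact not_not.1 (Qg.ne_one.not.2 (not_not.2 (by simpa using congrFun (congrFun (cP_inj e) 0) 2)))
  cj w u := by
    simp only [MonoidHom.comp_apply, ← map_mul, mul_inv_eq_iff_eq_mul]
    refine congrArg _ (Subtype.ext (Units.ext ?_))
    simp only [coe_mul, Units.val_mul, mi_val, mj_val, ← map_mul]
    have : (w.1 : F) * σ w.1 = 1 := w.2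
    congr 1; ext i j; fin_cases i <;> fin_cases j <;> simp [this]
    rw [mul_right_comm, this, one_mul]

theorem comm_mi {u : Qg hF} (ha : u.a = 0) (hb : u.b ≠ 0) {g : GU 3 F q} (h : Commute ((R0 hF).i u) g)
    {M : Matrix (Fin 3) (Fin 3) F} (hM : cP M = g.1) : M 1 0 = 0 ∧ M 2 0 = 0 ∧ M 2 1 = 0 ∧ M 2 2 = M 0 0 := by
  have h1 : (mi hF u * g)⁻¹ * (g * mi hF u) ∈ center _ := QuotientGroup.eq.1 h
  have h2 : mi hF u * mi hF u = 1 := by rw [← map_mul, Qg.sq_eq_one.2 ha, map_one]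
  obtain ⟨c, e⟩ := (gu_mem_center_iff hF le_rfl _).1 h1
  have h3 : (mi hF u * g)⁻¹ * (g * mi hF u) * ((mi hF u * g)⁻¹ * (g * mi hF u)) = 1 := by
    rw [mul_assoc, mul_assoc g, mem_center_iff.1 h1, inv_mul_eq_one]
    simp only [_root_.mul_inv_rev, mul_assoc, h2, mul_one, mul_inv_cancel_left, inv_eq_of_mul_eq_one_right h2]
  have h4 : ∀ z : GU 3 F q, (z.1 : Matrix (Fin 3) (Fin 3) F) = c • 1 → z * z = 1 → c = 1 := fun z e h => sq_inj (by
    simpa [e] using congrArg (fun x : GU 3 F q => (x.1 : Matrix (Fin 3) (Fin 3) F) 0 0) h)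
  obtain rfl := h4 _ e h3
  have h5 := congrArg (fun x : GU 3 F q => (x.1 : Matrix (Fin 3) (Fin 3) F)) (inv_mul_eq_one.1 (Subtype.ext (Units.ext (e.trans (one_smul _ _)))))
  simp only [coe_mul, Units.val_mul, mi_val, ← hM, ← map_mul, cP_inj.eq_iff] at h5
  have h6 := fun i j => congrFun (congrFun h5 i) j
  have a := h6 1 2
  have b := h6 0 0
  have c := h6 0 1
  have d := h6 0 2
  simp [Matrix.mul_apply, Fin.sum_univ_three, ha, hb] at a b c d
  exact ⟨a, b, c, mul_left_cancel₀ hb (by linear_combination d)⟩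

theorem cen_R0 : (R0 hF).Cen := by
  rintro _ ⟨u, ha, rfl⟩ h1 ⟨g⟩ h
  have hM := cP_surj (g.1 : Matrix (Fin 3) (Fin 3) F)
  generalize P * J * g.1.1 * P = M at hM
  obtain ⟨a1, a2, a3, a4⟩ := comm_mi ha (Qg.ne_one.1 fun e => h1 (e ▸ map_one _)) h hM
  have h2 := (mem_GU_iff 3 (frobq_apply hF) _).1 g.2
  rw [← hM, cP_unit] at h2
  have h6 := fun i j => congrFun (congrFun h2 i) j
  have a := h6 0 2
  have b := h6 1 1
  have c := h6 1 2
  have d := h6 2 2
  simp [Matrix.mul_apply, Fin.sum_univ_three, a1, a2, a3, a4] at a b c d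
  have h0 := left_ne_zero_of_mul_eq_one a
  have a' := eq_inv_of_mul_eq_one_right a
  refine ⟨⟨M 0 0 * σ (M 1 2), M 0 2 / M 0 0, ?_⟩, ⟨Units.mk0 (M 0 0 * σ (M 1 1)) (by simp [h0, left_ne_zero_of_mul_eq_one b]), ?_⟩,
    QuotientGroup.eq.2 ((gu_mem_center_iff hF le_rfl _).2 ⟨(M 0 0)⁻¹, ?_⟩)⟩
  · simp only [map_mul, map_div₀, frobq_frobq, a'] at d ⊢
    field_simp at d ⊢
    linear_combination d - M 0 0 * M 1 2 * σ (M 1 2) * CharTwo.two_eq_zero (R := F)
  · change _ * _ * σ (_ * _) = 1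
    rw [map_mul, frobq_frobq, mul_mul_mul_comm, a, mul_comm (σ _), b, one_mul]
  · simp only [coe_mul, coe_inv, Units.val_mul, mi_val, mj_val, ← map_mul]
    rw [Units.inv_mul_eq_iff_eq_mul, Matrix.mul_smul, mul_one, ← hM, ← cP_smul]
    congr 1; ext i j; fin_cases i <;> fin_cases j <;> simp [a1, a2, a3, a4, a', h0, div_eq_inv_mul]
    rw [a'] at c
    field_simp at c ⊢
    linear_combination c - M 0 1 * CharTwo.two_eq_zero (R := F)

theorem not_mem_R0 : ∃ g, g ∉ (R0 hF).H := by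
  let g : GU 3 F q := ⟨⟨J, J, JJ, JJ⟩, (mem_GU_iff 3 (frobq_apply hF) _).2 (by simp only [JT, Jσ, JJ])⟩
  have : Finite (GU 3 F q ⧸ center (GU 3 F q)) := Quotient.finite _
  refine ⟨g, fun h => ?_⟩
  obtain ⟨u, -, e⟩ := cen_R0.inv_mem_Z h (congrArg _ (show g * g = 1 from Subtype.ext (Units.ext JJ)))
  simpa using (comm_mi (M := J) rfl one_ne_zero (e ▸ (Md.sc_i u).comm (by simp) Md.s_mem).symm (by
    change P * J * (P * J) = J; rw [← mul_assoc, PJP, one_mul])).2.1

include hF in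
theorem char_pgu {G : Type*} [Group G] [Finite G] (hq : 2 < q) (heven : Even (Nat.card G))
    (hC : ∀ (x : G) (y : GU 3 F q ⧸ center (GU 3 F q)), orderOf x = 2 → orderOf y = 2 →
      Nonempty (centralizer {x} ≃* centralizer {y})) (hS : ∀ S : Sylow 2 G, ¬ (S : Subgroup G).Normal) :
    Nonempty (G ≃* GU 3 F q ⧸ center (GU 3 F q)) := by
  have : Finite (GU 3 F q ⧸ center (GU 3 F q)) := Quotient.finite _
  obtain ⟨g0, hg0⟩ := not_mem_R0 (hF := hF)
  obtain ⟨B'⟩ := cen_R0.bn hq hg0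
  obtain ⟨x, hx⟩ := exists_prime_orderOf_dvd_card' 2 heven.two_dvd
  have hs := inv_iff.1 ⟨Md.Z_sq (Md.s_mem (R := R0 hF)), Md.s_ne⟩
  obtain ⟨e⟩ := hC x _ hx hs
  have hi := fun u => mem_centralizer_singleton_iff.2 ((Md.sc_i (R := R0 hF) u).comm (by simp) Md.s_mem)
  have hj := fun w => mem_centralizer_singleton_iff.2 ((Md.sc_j (R := R0 hF) w).comm w.2 Md.s_mem)
  let f := (centralizer {x}).subtype.comp e.symm.toMonoidHom
  let R : Md hF G := ⟨f.comp ((R0 hF).i.codRestrict _ hi), f.comp ((R0 hF).j.codRestrict _ hj),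
    fun u v h => (R0 hF).inj (congrArg Subtype.val (e.symm.injective (Subtype.ext h))), fun w u => by
      simp only [MonoidHom.comp_apply, ← map_mul, ← map_inv]; exact congrArg f (Subtype.ext ((R0 hF).cj w u))⟩
  have h1 : ∀ g ∈ centralizer {x}, ∃ u w, g = R.i u * R.j w := fun g hg => by
    obtain ⟨u, w, h⟩ := cen_R0 _ Md.s_mem Md.s_ne _ (mem_centralizer_singleton_iff.1 (e ⟨g, hg⟩).2).symm
    exact ⟨u, w, (show g = f (e ⟨g, hg⟩) by simp [f]).trans ((congrArg f (Subtype.ext h)).trans (map_mul f _ _))⟩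
  have c : R.Cen := fun y hy y1 g h => h1 g (by
    obtain ⟨e'⟩ := hC y _ (inv_iff.1 ⟨Md.Z_sq hy, y1⟩) hs
    rw [eq_of_le_of_card_ge (H := centralizer {x}) (K := centralizer {y}) (fun g hg => ?_) (Nat.card_congr (e'.trans e.symm).toEquiv).le]
    · exact mem_centralizer_singleton_iff.2 h.symm
    obtain ⟨u, w, rfl⟩ := h1 g hg
    exact mem_centralizer_singleton_iff.2 (((Md.sc_i u).comm (by simp) hy).mul_left ((Md.sc_j w).comm w.2 hy)))
  obtain ⟨g, hg⟩ : ∃ g, g ∉ R.H := by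
    by_contra! h
    obtain ⟨S, h2⟩ := (show IsPGroup 2 R.i.range by
      rintro ⟨_, u, rfl⟩
      exact ⟨2, Subtype.ext (by rw [coe_pow, ← map_pow, show 2 ^ 2 = 4 from rfl, Qg.pow_four, map_one, coe_one])⟩).exists_le_sylow
    have : Nontrivial S := ⟨⟨R.s, h2 ⟨_, rfl⟩⟩, 1, fun e => Md.s_ne (congrArg Subtype.val e)⟩
    have := S.isPGroup'.center_nontrivial
    obtain ⟨z, hz⟩ := exists_ne (1 : center S)
    obtain ⟨k, hk⟩ := (IsPGroup.iff_orderOf.1 S.isPGroup') z.1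
    obtain ⟨j, hj⟩ := exists_inv_pow (x := (z.1 : G)) (by
      rw [orderOf_coe, hk]
      exact Nat.even_pow.2 ⟨even_two, by rintro rfl; exact hz (Subtype.ext (orderOf_eq_one_iff.1 hk))⟩) (orderOf_pos _).ne'
    have key : ∀ x ∈ S, Commute ((z.1 : G) ^ j) x := fun x hx =>
      Commute.pow_left (congrArg Subtype.val (mem_center_iff.1 z.2 ⟨x, hx⟩)).symm j
    refine hS S ⟨fun n hn g => h2 ?_⟩
    obtain ⟨k, hk⟩ := S.isPGroup' ⟨n, hn⟩
    obtain ⟨u, rfl⟩ := c.mem_Q (c.mem_Z Md.s_mem Md.s_ne (key _ (h2 ⟨_, rfl⟩)).symm hj.1) hj.2 (key n hn) (congrArg Subtype.val hk)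
    exact c.conj_Q (h g) u
  obtain ⟨B⟩ := c.bn hq hg
  exact B.equiv B'

end Cfsg.Agent.PGU
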