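import Cfsg.Agent.Forms.NormCount

set_option autoImplicit false

/-! The Sylow `2`-subgroup of `PGU₃(q)`, `q` even. -/

namespace Cfsg.Agent.PGU

open Cfsg.Agent.Forms

variable {F : Type*} [Field F] [Fintype F] [CharP F 2] {q : ℕ} (hF : Fintype.card F = q ^ 2)

local notation "σ" => frobq hF

include hF in
theorem even_q : Even q := by
  obtain ⟨n, -, h⟩ := FiniteField.card F 2
  exact (Nat.even_pow.1 (hF ▸ h ▸ Nat.even_pow.2 ⟨even_two, n.ne_zero⟩)).1

omit [Fintype F] in
theorem sq_inj {x y : F} (h : x * x = y * y) : x = y :=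
  (mul_self_eq_mul_self_iff.1 h).elim id fun e => e.trans (CharTwo.neg_eq y)

theorem exists_sqrt {c : F} (hc : σ c = c) : ∃ k, σ k = k ∧ k * k = c := by
  obtain ⟨k, rfl⟩ := FiniteField.isSquare_of_char_two (ringChar.eq F 2) c
  exact ⟨k, sq_inj (by rw [← map_mul, hc]), rfl⟩

theorem tr_eq_zero {b : F} : b + σ b = 0 ↔ σ b = b := by rw [CharTwo.add_eq_zero, eq_comm]

theorem exists_tr (a : F) : ∃ b, b + σ b = a * σ a := by
  obtain ⟨θ, h⟩ := exists_frobq_ne hF
  have := (tr_eq_zero hF).not.2 h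
  refine ⟨a * σ a * θ / (θ + σ θ), ?_⟩
  simp only [map_div₀, map_mul, map_add, frobq_frobq, add_comm (σ θ)]
  field_simp

omit [CharP F 2] in
theorem subring_top (P : Subring F) (h : ∀ w, w * σ w = 1 → w ∈ P) (x : F) : x ∈ P := by
  classical
  let P' : Subfield F := { P with
    inv_mem' := fun x hx => by
      by_cases h0 : x = 0
      · rw [h0, inv_zero]; exact P.zero_mem
      · have := FiniteField.pow_card_sub_one_eq_one x h0
        rw [show Fintype.card F - 1 = Fintype.card F - 2 + 1 by have := Fintype.one_lt_card (α := F); omega, pow_succ] at this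
        exact eq_inv_of_mul_eq_one_left this ▸ P.pow_mem hx _ }
  have h1 := Module.card_eq_pow_finrank (K := P') (V := F)
  have h2 : q + 1 ≤ Fintype.card P' := by
    rw [← card_nrm_one hF, ← Fintype.card_coe]
    exact Fintype.card_le_of_injective (fun x => ⟨x.1, h _ (Finset.mem_filter.1 x.2).2⟩) fun x y e =>
      Subtype.ext (Subtype.mk.inj e)
  have h3 : Module.finrank P' F = 1 := by
    have := Module.finrank_pos (R := P') (M := F)
    by_contra h4
    have := (Nat.pow_le_pow_left h2 2).trans (Nat.pow_le_pow_right Fintype.card_pos (show 2 ≤ Module.finrank P' F by omega))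
    nlinarith
  rw [h3, pow_one] at h1
  obtain ⟨y, rfl⟩ := ((Fintype.bijective_iff_injective_and_card (Subtype.val : P' → F)).2 ⟨Subtype.val_injective, h1.symm⟩).2 x
  exact y.2

/-- the unipotent group -/
@[ext] structure Qg where
  /-- first coordinate -/
  a : F
  /-- second coordinate -/
  b : F
  h : b + σ b = a * σ a

instance instMulQg : Mul (Qg hF) := ⟨fun u v => ⟨u.a + v.a, u.b + v.b + u.a * σ v.a, by
  simp only [map_add, map_mul, frobq_frobq]; linear_combination u.h + v.h⟩⟩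

instance instOneQg : One (Qg hF) := ⟨⟨0, 0, by simp⟩⟩

instance instInvQg : Inv (Qg hF) := ⟨fun u => ⟨u.a, σ u.b, by rw [frobq_frobq, add_comm, u.h]⟩⟩

variable {hF}

@[simp] theorem mul_a (u v : Qg hF) : (u * v).a = u.a + v.a := rfl
@[simp] theorem mul_b (u v : Qg hF) : (u * v).b = u.b + v.b + u.a * σ v.a := rfl
omit [CharP F 2] in
@[simp] theorem one_a : (1 : Qg hF).a = 0 := rfl
omit [CharP F 2] in
@[simp] theorem one_b : (1 : Qg hF).b = 0 := rfl
omit [CharP F 2] in
@[simp] theorem inv_a (u : Qg hF) : u⁻¹.a = u.a := rfl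
omit [CharP F 2] in
@[simp] theorem inv_b (u : Qg hF) : u⁻¹.b = σ u.b := rfl

instance instGroupQg : Group (Qg hF) := Group.ofLeftAxioms
  (fun u v w => by ext <;> simp <;> ring) (fun u => by ext <;> simp)
  fun u => by ext <;> simp [← u.h, CharTwo.add_self_eq_zero, add_comm]

instance instFiniteQg : Finite (Qg hF) := Finite.of_injective (fun u : Qg hF => (u.a, u.b)) fun _ _ e =>
  Qg.ext (congrArg Prod.fst e) (congrArg Prod.snd e)

/-- central elements -/
def zz (c : F) (hc : σ c = c) : Qg hF := ⟨0, c, by simp [hc, CharTwo.add_self_eq_zero]⟩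

@[simp] theorem zz_a (c : F) (hc : σ c = c) : (zz c hc).a = 0 := rfl
@[simp] theorem zz_b (c : F) (hc : σ c = c) : (zz c hc).b = c := rfl

theorem Qg.fix {u : Qg hF} (h : u.a = 0) : σ u.b = u.b := (tr_eq_zero hF).1 (by simp [u.h, h])

omit [CharP F 2] in
theorem Qg.ne_one {u : Qg hF} : u ≠ 1 ↔ u.b ≠ 0 := by
  refine not_congr ⟨fun e => e ▸ rfl, fun e => Qg.ext ?_ e⟩
  simpa [e] using u.h.symm

theorem Qg.comm {u : Qg hF} (h : u.a = 0) (v : Qg hF) : Commute u v := by
  change _ = _; ext <;> simp [h, add_comm]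

theorem sq_a (u : Qg hF) : (u * u).a = 0 := CharTwo.add_self_eq_zero _
theorem sq_b (u : Qg hF) : (u * u).b = u.a * σ u.a := by rw [mul_b, CharTwo.add_self_eq_zero, zero_add]

theorem Qg.sq_eq_one {u : Qg hF} : u * u = 1 ↔ u.a = 0 :=
  ⟨fun e => by simpa [e] using (sq_b u).symm, fun e => Qg.ext (sq_a u) (by rw [sq_b, e, zero_mul, one_b])⟩

theorem Qg.pow_four (u : Qg hF) : u ^ 4 = 1 := by
  rw [show 4 = 2 * 2 from rfl, pow_mul, pow_two, pow_two, Qg.sq_eq_one, sq_a]

theorem exists_a (a : F) : ∃ u : Qg hF, u.a = a := (exists_tr hF a).elim fun b h => ⟨⟨a, b, h⟩, rfl⟩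

/-- the action of the torus -/
def act (l : F) (u : Qg hF) : Qg hF := ⟨l * u.a, l * σ l * u.b, by
  simp only [map_mul, frobq_frobq]; linear_combination l * σ l * u.h⟩

omit [CharP F 2] in
@[simp] theorem act_a (l : F) (u : Qg hF) : (act l u).a = l * u.a := rfl
omit [CharP F 2] in
@[simp] theorem act_b (l : F) (u : Qg hF) : (act l u).b = l * σ l * u.b := rfl

variable (hF) in
/-- elements of norm one -/
def Wg : Subgroup Fˣ where
  carrier := {w | w * σ w = 1}
  one_mem' := by simp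
  mul_mem' {a b} ha hb := by
    change (a * b : F) * σ (a * b) = 1
    rw [map_mul, mul_mul_mul_comm, ha, hb, one_mul]
  inv_mem' {a} ha := by
    change (a⁻¹ : Fˣ) * σ (a⁻¹ : Fˣ) = 1
    rw [Units.val_inv_eq_inv_val, map_inv₀, ← mul_inv, ha, inv_one]

theorem eq_one_of_pow {w : F} (h : w * σ w = 1) {k : ℕ} (h1 : w ^ 2 ^ k = 1) : w = 1 := by
  rw [frobq_apply, ← pow_succ'] at h
  have := pow_gcd_eq_one.2 ⟨h, h1⟩
  rwa [(Nat.coprime_two_right.2 (even_q hF).add_one).pow_right k, pow_one] at this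

theorem exists_kw {l : F} (h : l ≠ 0) : ∃ k w, σ k = k ∧ w * σ w = 1 ∧ l = k * w := by
  obtain ⟨k, h1, h2⟩ := exists_sqrt hF (frobq_nrm hF l)
  have : k ≠ 0 := by rintro rfl; simp [nrm, h] at h2
  exact ⟨k, l / k, h1, by rw [map_div₀, h1, div_mul_div_comm, h2, nrm, div_self (by simp [h])], by field_simp⟩

omit [CharP F 2] in
theorem card_fix : Nat.card {c : F // σ c = c ∧ c ≠ 0} = q - 1 := by
  have h2 := two_le_q hF
  have h1 := IsCyclic.card_powMonoidHom_ker Fˣ (q - 1)
  rw [Nat.card_units, Nat.card_eq_fintype_card (α := F), hF,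
    Nat.gcd_eq_right (by rw [← one_pow 2, Nat.sq_sub_sq, one_pow]; exact dvd_mul_left _ _)] at h1
  have key : ∀ c : F, c ≠ 0 → (σ c = c ↔ c ^ (q - 1) = 1) := fun c hc => by
    rw [frobq_apply, ← mul_left_inj' hc (a := c ^ (q - 1)), ← pow_succ, Nat.sub_add_cancel (by omega), one_mul]
  rw [← h1]
  refine (Nat.card_congr (Equiv.ofBijective (fun u => ⟨(u.1 : F), (key _ u.1.ne_zero).2 (congrArg Units.val u.2), u.1.ne_zero⟩)
    ⟨fun u v h => Subtype.ext (Units.ext (congrArg Subtype.val h)), ?_⟩)).symm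
  rintro ⟨x, hx⟩
  exact ⟨⟨Units.mk0 x hx.2, Units.ext ((key x hx.2).1 hx.1)⟩, rfl⟩

omit [CharP F 2] in
theorem exists_fix (hq : 2 < q) : ∃ c : F, σ c = c ∧ c ≠ 0 ∧ c ≠ 1 := by
  have : Nontrivial {c : F // σ c = c ∧ c ≠ 0} := Finite.one_lt_card_iff_nontrivial.1 (by rw [card_fix]; omega)
  obtain ⟨c, hc⟩ := exists_ne (⟨1, map_one _, one_ne_zero⟩ : {c : F // σ c = c ∧ c ≠ 0})
  exact ⟨c, c.2.1, c.2.2, fun e => hc (Subtype.ext e)⟩

variable (hF) in
omit [CharP F 2] in
theorem exists_w : ∃ w : F, w * σ w = 1 ∧ w ≠ 1 := by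
  obtain ⟨θ, h⟩ := exists_frobq_ne hF
  have : θ ≠ 0 := by rintro rfl; simp at h
  exact ⟨σ θ / θ, by rw [map_div₀, frobq_frobq, div_mul_div_cancel₀ this, div_self (by simpa)], by rwa [Ne, div_eq_one_iff_eq this]⟩

end Cfsg.Agent.PGU
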