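import Cfsg.Agent.PGU.Tor

set_option autoImplicit false
set_option linter.unusedSectionVars false

/-! Uniqueness of the split `BN`-pair. -/

namespace Cfsg.Agent.PGU

open Cfsg.Agent.Forms Subgroup

variable {F : Type*} [Field F] [Fintype F] [CharP F 2] {q : ℕ} {hF : Fintype.card F = q ^ 2} {G : Type*} [Group G]

local notation "σ" => frobq hF
attribute [local simp] frobq_frobq

open Classical in
/-- the action of the Weyl element -/
noncomputable def tau : Option (Qg hF) → Option (Qg hF)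
  | none => some 1
  | some u => if h : u.b = 0 then none else some ⟨u.a / σ u.b, u.b⁻¹, by
    have : σ u.b ≠ 0 := by simpa
    simp only [map_inv₀, map_div₀, frobq_frobq]; field_simp; linear_combination u.h⟩

variable (hF) in
/-- the generating permutations -/
def gens : Set (Equiv.Perm (Option (Qg hF))) :=
  {π | (∃ u, ∀ x, π x = x.map (u * ·)) ∨ (∃ l : Fˣ, ∀ x, π x = x.map (act (l : F))) ∨ ∀ x, π x = tau x}

namespace BN

variable (B : BN hF G)

/-- points -/
def pt : Option (Qg hF) → G ⧸ B.H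
  | none => (1 : G)
  | some u => (B.i u * B.t : G)

/-- Weyl elements -/
structure Wy (t : G) : Prop where
  tt : t * t = 1
  td : ∀ l m : Fˣ, m * σ l = 1 → t * B.d l * t = B.d m
  t0 : t • B.pt none = B.pt (some 1)

/-- the graph of the Weyl element -/
abbrev T (t : G) (u v : Qg hF) : Prop := t • B.pt (some u) = B.pt (some v)

variable {B} {g h t : G} {u v x y : Qg hF}

theorem i_mem (u : Qg hF) : B.i u ∈ B.H := (B.mem _).2 ⟨u, 1, by simp⟩
theorem d_mem (l : Fˣ) : B.d l ∈ B.H := (B.mem _).2 ⟨1, l, by simp⟩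

theorem pt_inj : Function.Injective B.pt := by
  have a : ∀ u, B.pt none ≠ B.pt (some u) := fun u e =>
    B.tH ((B.H.mul_mem_cancel_left (i_mem u)).1 (by simpa using QuotientGroup.eq.1 e))
  rintro (_ | u) (_ | v) e
  · rfl
  · exact (a _ e).elim
  · exact (a _ e.symm).elim
  · rw [inv_mul_eq_one.1 (B.tQ (u⁻¹ * v) (by simpa [inv_eq_of_mul_eq_one_right B.tt, mul_assoc] using QuotientGroup.eq.1 e))]

theorem pt_surj : Function.Surjective B.pt := by
  rintro ⟨g⟩
  by_cases h : g ∈ B.H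
  · exact ⟨none, QuotientGroup.eq.2 (by simpa)⟩
  · exact (B.top g h).elim fun u e => ⟨some u, QuotientGroup.eq.2 e⟩

theorem fix_none : g • B.pt none = B.pt none ↔ g ∈ B.H := QuotientGroup.eq.trans (by simp)

theorem i_pt (u : Qg hF) (x : Option (Qg hF)) : B.i u • B.pt x = B.pt (x.map (u * ·)) := by
  cases x with
  | none => exact fix_none.2 (i_mem u)
  | some v => exact QuotientGroup.eq.2 (by simp [mul_assoc])

theorem d_pt (l : Fˣ) (x : Option (Qg hF)) : B.d l • B.pt x = B.pt (x.map (act (l : F))) := by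
  cases x with
  | none => exact fix_none.2 (d_mem l)
  | some v =>
    refine QuotientGroup.eq.2 ?_
    have := inv_mem (B.td l (Units.map (σ : F →* F) l)⁻¹ (by simp) ▸ d_mem _)
    simpa [← B.cj, mul_assoc, inv_eq_of_mul_eq_one_right B.tt] using this

theorem i_none (u : Qg hF) : B.i u • B.pt none = B.pt none := i_pt u _
theorem i_some (u v : Qg hF) : B.i u • B.pt (some v) = B.pt (some (u * v)) := i_pt u _
theorem d_some (l : Fˣ) (v : Qg hF) : B.d l • B.pt (some v) = B.pt (some (act (l : F) v)) := d_pt l _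

theorem wy : B.Wy B.t := ⟨B.tt, B.td, QuotientGroup.eq.2 (by simp)⟩

theorem same (h0 : h • B.pt none = B.pt none) (h1 : B.T h x x) (h2 : B.T h y y) : h = 1 ∨ x.a = y.a := by
  obtain ⟨u, l, rfl⟩ := (B.mem _).1 (fix_none.1 h0)
  simp only [T, mul_smul, d_some, i_some, pt_inj.eq_iff, Option.some.injEq] at h1 h2
  by_cases e : l = 1
  · subst e
    rw [show act ((1 : Fˣ) : F) x = x by ext <;> simp, mul_eq_right] at h1
    simp [h1]
  · refine Or.inr (mul_left_cancel₀ (sub_ne_zero.2 (Units.val_eq_one.not.2 e)) ?_)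
    have a := congrArg Qg.a h1
    have b := congrArg Qg.a h2
    simp only [mul_a, act_a] at a b
    linear_combination a - b

namespace Wy

variable (W : B.Wy t)
include W

theorem smul_smul' (p : G ⧸ B.H) : t • t • p = p := by rw [smul_smul, W.tt, one_smul]

theorem t1 : t • B.pt (some 1) = B.pt none := by rw [← W.t0, W.smul_smul']

theorem symm (e : B.T t u v) : B.T t v u := by rw [T, ← e, W.smul_smul']

theorem ne (e : B.T t u v) : u.b ≠ 0 := Qg.ne_one.1 fun h => by simpa [T, h, W.t1, pt_inj.eq_iff] using e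

theorem ex (h : u.b ≠ 0) : ∃ v, B.T t u v := by
  obtain ⟨_ | v, e⟩ := pt_surj (t • B.pt (some u))
  · rw [← W.t1, smul_left_cancel_iff] at e
    exact (Qg.ne_one.2 h (Option.some.inj (pt_inj e)).symm).elim
  · exact ⟨v, e.symm⟩

theorem act' (e : B.T t u v) {l m : F} (h : m * σ l = 1) : B.T t (act l u) (act m v) := by
  have h0 : l ≠ 0 := by rintro rfl; simp at h
  have := W.td (Units.mk0 l h0) (Units.mk0 m (left_ne_zero_of_mul_eq_one h)) h
  rw [T, ← Units.val_mk0 h0, ← d_some, ← W.smul_smul' (B.pt (some u)), e, smul_smul, smul_smul, this, d_some]; rfl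

omit W in
theorem uniq (e : B.T t u x) (e' : B.T t u y) : x = y := Option.some.inj (pt_inj (e.symm.trans e'))

theorem zero (e : B.T t u v) (h : u.a = 0) : v.a = 0 := by
  obtain ⟨w, h1, h2⟩ := exists_w hF
  have := W.act' e h1
  rw [show act w u = u by ext <;> simp [h, h1]] at this
  exact by_contra fun h3 => h2 (mul_right_cancel₀ h3 ((congrArg Qg.a (uniq this e)).trans (one_mul _).symm))

theorem norm : ∃ t, B.Wy t ∧ B.T t (zz 1 (map_one _)) (zz 1 (map_one _)) := by
  obtain ⟨v, e⟩ := W.ex (u := zz 1 (map_one _)) one_ne_zero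
  obtain ⟨k, h1, h2⟩ := exists_sqrt hF (Qg.fix (W.zero e rfl))
  have h0 : k ≠ 0 := by rintro rfl; exact W.ne (W.symm e) (by simpa using h2.symm)
  have h3 := W.td (Units.mk0 k h0) (Units.mk0 k h0)⁻¹ (by simp [h1, h0])
  refine ⟨t * B.d (Units.mk0 k h0), ⟨by rw [← mul_assoc, h3]; simp, fun l m h => ?_, by rw [mul_smul, d_pt, ← W.t0]; rfl⟩, ?_⟩
  · calc _ = t * B.d (Units.mk0 k h0) * t * (t * B.d l * t) * B.d (Units.mk0 k h0) := by
          simp only [mul_assoc, ← mul_assoc t t, W.tt, one_mul]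
      _ = _ := by rw [h3, W.td l m h, ← map_mul, ← map_mul, mul_comm _ m, inv_mul_cancel_right]
  · rw [T, mul_smul, d_some, W.act' e (m := k⁻¹) (by simp [h1, h0])]
    congr 2; ext
    · simp [W.zero e rfl]
    · simp only [act_b, ← h2, map_inv₀, h1, zz_b]; field_simp

theorem const : ∃ c, ∀ u v, B.T t u v → v.a * σ u.b = c * u.a := by
  obtain ⟨y, hy⟩ := exists_a (hF := hF) 1
  have hb : y.b ≠ 0 := fun e => by simpa [e, hy] using y.h
  obtain ⟨v, e⟩ := W.ex hb
  have h0 : v.a ≠ 0 := fun h => by simpa [hy] using W.zero (W.symm e) h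
  set z := v * (act v.a y)⁻¹
  have hz : z.a = 0 := by simp [z, hy, CharTwo.add_self_eq_zero]
  let p : ∀ w, w * σ w = 1 → Qg hF := fun w hw => y⁻¹ * act w y
  let h := t * (B.i y)⁻¹ * (t * (B.i z * B.d (Units.mk0 _ h0))) * B.i y * t
  have h1 : ∀ w hw, h • t • B.pt (some (p w hw)) = t • B.pt (some (p w hw)) := fun w hw => by
    simp only [h, mul_smul, W.smul_smul', i_some, d_some, p, mul_inv_cancel_left, smul_left_cancel_iff, inv_smul_eq_iff]
    rw [← W.symm (W.act' e hw)]
    congr 3; ext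
    · simp [hz, hy, mul_comm]
    · have := y.h
      simp only [z, hz, hy, hw, mul_b, act_b, inv_b, inv_a, act_a, map_mul, map_one, frobq_frobq, Units.val_mk0, zero_mul] at this ⊢
      linear_combination v.a * σ v.a * this + v.a * σ v.a * CharTwo.two_eq_zero (R := F)
  have h2 : h • B.pt none = B.pt none := by simpa [p, show act 1 y = y by ext <;> simp, W.t1] using h1 1 (by simp)
  have h3 : h ≠ 1 := fun e => by
    have e1 : t * (B.i z * B.d (Units.mk0 _ h0)) = 1 := by
      simpa [h, mul_assoc, ← mul_assoc t t, W.tt] using congrArg (fun g => B.i y * t * g * t * (B.i y)⁻¹) e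
    simpa [mul_smul, i_none, d_pt, W.t0, pt_inj.eq_iff] using congrArg (· • B.pt none) e1
  obtain ⟨w, w1, w2⟩ := exists_w hF
  have h4 : ∀ w hw, (p w hw).b = 1 + σ w := fun w hw => by
    have := y.h; simp only [p, mul_b, inv_b, act_b, inv_a, act_a, hw, hy, mul_one, map_one, one_mul] at this ⊢; rw [← this, add_comm y.b]
  have h5 : ∀ {w : F}, w * σ w = 1 → w ≠ 1 → 1 + σ w ≠ 0 := fun hw h e => h (by rwa [← CharTwo.add_eq_zero.1 e, mul_one] at hw)
  obtain ⟨x, ex⟩ := W.ex (h4 w w1 ▸ h5 w1 w2)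
  refine ⟨x.a, fun u v e => ?_⟩
  by_cases ha : u.a = 0
  · simp [ha, W.zero e ha]
  have hb := W.ne e
  have hb' : σ u.b ≠ 0 := by simpa
  have ha' : σ u.a ≠ 0 := by simpa
  have a1 : σ u.b / u.b * σ (σ u.b / u.b) = 1 := by simp [hb]
  have a2 : σ u.b / u.b ≠ 1 := fun e => ha (by simpa [(div_eq_one_iff_eq hb).1 e, CharTwo.add_self_eq_zero] using u.h.symm)
  have a3 := W.act' e (l := σ u.a / u.b) (m := σ u.b / u.a) (by simp [hb, ha])
  rw [show act (σ u.a / u.b) u = p _ a1 by
    ext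
    · simp only [p, act_a, mul_a, inv_a, hy]; field_simp; linear_combination -u.h
    · simp only [h4, act_b, map_div₀, frobq_frobq]; field_simp; linear_combination -u.h] at a3
  have := (same h2 (ex ▸ h1 w w1) (a3 ▸ h1 _ a1)).resolve_left h3
  rw [this, act_a]; field_simp

theorem braid (hs : B.T t (zz 1 (map_one _)) (zz 1 (map_one _))) : (B.i (zz 1 (map_one _)) * t) ^ 3 = 1 := by
  set s : Qg hF := zz 1 (map_one _)
  have e1 : s * s = 1 := Qg.sq_eq_one.2 rfl
  have h0 : (B.i s * t) ^ 3 • B.pt none = B.pt none := by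
    simp only [pow_succ, pow_zero, one_mul, mul_smul, W.t0, W.t1, i_some, mul_one, hs, e1, i_none]
  have h1 : B.T ((B.i s * t) ^ 3) 1 1 := by
    simp only [T, pow_succ, pow_zero, one_mul, mul_smul, W.t0, W.t1, i_some, mul_one, hs, e1, i_none]
  have h2 : B.T ((B.i s * t) ^ 3) s s := by
    simp only [T, pow_succ, pow_zero, one_mul, mul_smul, W.t0, W.t1, i_some, mul_one, hs, e1, i_none]
  obtain ⟨u, l, e⟩ := (B.mem _).1 (fix_none.1 h0)
  simp only [T, e, mul_smul, d_some, i_some, pt_inj.eq_iff, Option.some.injEq] at h1 h2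
  obtain rfl : u = 1 := by rwa [show act (l : F) (1 : Qg hF) = 1 by ext <;> simp, mul_one] at h1
  have h3 := W.td l l (by simpa [s] using congrArg Qg.b h2)
  rw [map_one, one_mul] at e
  have h4 : B.d (l * l) = 1 := by
    have e2 : B.i s * B.i s = 1 := by rw [← map_mul, e1, map_one]
    rw [map_mul]; nth_rewrite 1 [← h3]
    simp only [← e, pow_succ, pow_zero, one_mul, mul_assoc, ← mul_assoc t t, W.tt, ← mul_assoc (B.i s) (B.i s), e2, mul_one]
  obtain ⟨y, hy⟩ := exists_a (hF := hF) 1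
  have := congrArg Qg.a (B.inj ((B.cj (l * l) y).symm.trans (show _ = B.i y by simp [h4])))
  rw [e, show l = 1 from Units.ext (sq_inj (by simpa [hy] using this)), map_one]

theorem eq_tau (hs : B.T t (zz 1 (map_one _)) (zz 1 (map_one _))) (x : Option (Qg hF)) : t • B.pt x = B.pt (tau x) := by
  obtain ⟨c, hc⟩ := W.const
  set s : Qg hF := zz 1 (map_one _)
  have e1 : s * s = 1 := Qg.sq_eq_one.2 rfl
  have h1 : ∀ u : Qg hF, u.a = 1 → c = 1 ∨ c = σ u.b := fun u hu => by
    have n : ∀ u : Qg hF, u.a ≠ 0 → u.b ≠ 0 := fun u h e => h (by simpa [e] using u.h.symm)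
    obtain ⟨v, e2⟩ := W.ex (n u (by simp [hu]))
    have h0 : v.a ≠ 0 := fun h => by simpa [hu] using W.zero (W.symm e2) h
    obtain ⟨x, e3⟩ := W.ex (n (s * u) (by simp [hu, s]))
    obtain ⟨y, e4⟩ := W.ex (n (s * v) (by simpa [s]))
    have e5 : B.i s • (B.i s * t) ^ 3 • B.pt (some u) = B.i s • (1 : G) • B.pt (some u) := by rw [W.braid hs]
    simp only [pow_succ, pow_zero, one_mul, mul_smul, one_smul, e2, e4, i_some, smul_left_cancel_iff] at e5
    obtain rfl := uniq e3 (W.symm (show B.T t (s * y) (s * u) by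
      rw [T, ← e5, smul_smul, ← map_mul, e1, map_one, one_smul]))
    have a1 := hc _ _ e2
    have a2 := hc _ _ e3
    have a3 := hc _ _ e4
    have a4 := hc _ _ (W.symm e2)
    simp only [s, mul_a, mul_b, zz_a, zz_b, hu, zero_add, map_add, map_one, zero_mul, add_zero, mul_one, one_mul] at a1 a2 a3 a4
    have a5 : y.a ≠ 0 := fun h => mul_ne_zero h0 (show σ u.b ≠ 0 by simpa using W.ne e2) (by rw [a1, ← a2, h, zero_mul])
    simpa only [mul_eq_zero, CharTwo.add_eq_zero] using mul_left_cancel₀ a5 (show y.a * ((c + 1) * (c + σ u.b)) = y.a * 0 by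
      linear_combination c * a2 + σ u.b * a3 - σ u.b * y.a * a4 + (c - y.a * c) * a1 + c * c * CharTwo.two_eq_zero (R := F))
  obtain rfl : c = 1 := by
    obtain ⟨y, hy⟩ := exists_a (hF := hF) 1
    refine (h1 y hy).elim id fun e => (h1 y⁻¹ hy).elim id fun e' => ?_
    have := y.h
    rw [← e, show y.b = c by simpa using e'.symm, CharTwo.add_self_eq_zero, hy] at this
    simp at this
  rcases x with _ | u
  · exact W.t0
  by_cases h : u.b = 0
  · obtain rfl : u = 1 := not_not.1 (Qg.ne_one.not.2 (not_not.2 h))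
    simp only [tau, one_b, dif_pos, W.t1]
  obtain ⟨v, e⟩ := W.ex h
  have hb' : σ u.b ≠ 0 := by simpa
  simp only [tau, h, dif_neg, not_false_eq_true, e]
  have a1 := hc u v e
  congr 2; ext
  · exact eq_div_of_mul_eq hb' (by simpa using a1)
  by_cases ha : u.a = 0
  · obtain ⟨k, h1, h2⟩ := exists_sqrt hF (Qg.fix ha)
    have h0 : k ≠ 0 := by rintro rfl; exact h (by simpa using h2.symm)
    have := W.act' hs (l := k) (m := k⁻¹) (by simp [h1, h0])
    rw [show act k s = u by ext <;> simp [s, ha, h1, h2]] at this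
    simp [uniq e this, s, h1, ← h2]
  · refine eq_inv_of_mul_eq_one_left ((σ).injective (mul_left_cancel₀ ha ?_))
    rw [map_mul, ← mul_assoc, hc v u (W.symm e), one_mul, a1, map_one, one_mul, mul_one]

end Wy

theorem rep (B : BN hF G) : ∃ ρ : G →* Equiv.Perm (Option (Qg hF)), Function.Injective ρ ∧ ρ.range = closure (gens hF) := by
  obtain ⟨t, W, hs⟩ := (wy (B := B)).norm
  let e := Equiv.ofBijective B.pt ⟨pt_inj, pt_surj⟩
  let ρ : G →* Equiv.Perm (Option (Qg hF)) := e.symm.permCongrHom.toMonoidHom.comp (MulAction.toPermHom G _)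
  have h : ∀ g x y, ρ g x = y ↔ g • B.pt x = B.pt y := fun g x y => e.symm_apply_eq
  have hH : ∀ g ∈ B.H, ρ g ∈ closure (gens hF) := fun g hg => by
    obtain ⟨u, l, rfl⟩ := (B.mem _).1 hg
    exact map_mul ρ _ _ ▸ mul_mem (subset_closure (.inl ⟨u, fun x => (h _ _ _).2 (i_pt _ _)⟩))
      (subset_closure (.inr (.inl ⟨l, fun x => (h _ _ _).2 (d_pt _ _)⟩)))
  refine ⟨ρ, (injective_iff_map_eq_one _).2 fun g hg => ?_, le_antisymm ?_ ((closure_le _).2 ?_)⟩
  · obtain ⟨y, hy⟩ := exists_a (hF := hF) 1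
    have : ∀ x, g • B.pt x = B.pt x := fun x => (h _ _ _).1 (hg ▸ rfl)
    exact (same (this _) (this (some y)) (this (some 1))).resolve_right (by simp [hy])
  · rintro _ ⟨g, rfl⟩
    obtain ⟨_ | u, e⟩ := pt_surj (g • B.pt none)
    · exact hH g (fix_none.1 e.symm)
    · have := mul_mem (mul_mem (hH _ (i_mem u)) (subset_closure (.inr (.inr fun x => (h t _ _).2 (W.eq_tau hs x)))))
        (hH ((B.i u * t)⁻¹ * g) (fix_none.1 (by rw [mul_smul, inv_smul_eq_iff, ← e, mul_smul, W.t0, i_some, mul_one])))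
      simpa only [← map_mul, mul_inv_cancel_left] using this
  · rintro π (⟨u, e⟩ | ⟨l, e⟩ | e)
    exacts [⟨B.i u, Equiv.ext fun x => (h _ _ _).2 (e x ▸ i_pt _ _)⟩, ⟨B.d l, Equiv.ext fun x => (h _ _ _).2 (e x ▸ d_pt _ _)⟩,
      ⟨t, Equiv.ext fun x => (h _ _ _).2 (e x ▸ W.eq_tau hs x)⟩]

theorem equiv {G' : Type*} [Group G'] (B : BN hF G) (B' : BN hF G') : Nonempty (G ≃* G') := by
  obtain ⟨ρ, h1, h2⟩ := B.rep
  obtain ⟨ρ', h3, h4⟩ := B'.rep
  exact ⟨((MonoidHom.ofInjective h1).trans (MulEquiv.subgroupCongr (h2.trans h4.symm))).trans (MonoidHom.ofInjective h3).symm⟩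

end BN

end Cfsg.Agent.PGU
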