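import Cfsg.Agent.PGU.Emb

set_option autoImplicit false
set_option linter.unusedSectionVars false

/-! Groups with the involution centraliser of `PGU₃(q)`: the torus and the double coset decomposition. -/

namespace Cfsg.Agent.PGU

open Cfsg.Agent.Forms Cfsg.Agent.AbInv Subgroup

variable {F : Type*} [Field F] [Fintype F] [CharP F 2] {q : ℕ} {hF : Fintype.card F = q ^ 2} {G : Type*} [Group G]

local notation "σ" => frobq hF
attribute [local simp] frobq_frobq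

variable (hF G) in
/-- a split `BN`-pair of rank one -/
structure BN where
  /-- Borel subgroup -/
  H : Subgroup G
  /-- unipotent part -/
  i : Qg hF →* G
  /-- torus -/
  d : Fˣ →* G
  /-- Weyl element -/
  t : G
  inj : Function.Injective i
  cj : ∀ l u, d l * i u * (d l)⁻¹ = i (act (l : F) u)
  tt : t * t = 1
  td : ∀ l m : Fˣ, m * σ l = 1 → t * d l * t = d m
  mem : ∀ h, h ∈ H ↔ ∃ u l, h = i u * d l
  tH : t ∉ H
  tQ : ∀ u, t * i u * t ∈ H → u = 1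
  top : ∀ g ∉ H, ∃ u, (i u * t)⁻¹ * g ∈ H

namespace Md

variable {R : Md hF G} {g h t v k : G} {l m : F} [Finite G]

theorem Sc.inv (h1 : R.Sc g l) : l ≠ 0 ∧ R.Sc g⁻¹ l⁻¹ := by
  obtain ⟨n, hn⟩ := Nat.exists_eq_succ_of_ne_zero (orderOf_pos g).ne'
  have e := pow_orderOf_eq_one g
  rw [hn] at e
  have e1 := (h1.pow _).unique (e ▸ sc_one)
  rw [pow_succ] at e e1
  exact ⟨right_ne_zero_of_mul_eq_one e1, by
    rw [inv_eq_of_mul_eq_one_left e, inv_eq_of_mul_eq_one_left e1]; exact h1.pow n⟩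

theorem Sc.conj (h1 : R.Sc g l) (h2 : R.Sc h m) : R.Sc (g * h * g⁻¹) m := by
  simpa only [mul_comm l, mul_inv_cancel_right₀ h1.inv.1] using (h1.mul h2).mul h1.inv.2

theorem Sc.fix (h1 : R.Sc k l) (hl : σ l = l) (l1 : l ≠ 1) {u : Qg hF} (e : Commute (R.i u) k) : u = 1 := by
  obtain ⟨v, e1, e2⟩ := h1 u
  obtain rfl : u = v := R.inj (by rw [← e1, ← e.eq, mul_inv_cancel_right])
  have e3 : u.a = 0 := by_contra fun h => l1 (mul_right_cancel₀ h (e2.symm.trans (one_mul _).symm))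
  by_contra h
  exact l1 (sq_inj (mul_right_cancel₀ (Qg.ne_one.1 h) (by simpa [hl] using (h1.b e3 e1).2.symm)))

namespace Cen

variable (c : R.Cen)
include c

theorem Q_of_eq (h1 : R.Sc g l) (h2 : R.Sc h l) : ∃ u, g = R.i u * h := by
  obtain ⟨u, e⟩ := c.Q_of_sc (mul_inv_cancel₀ h1.inv.1 ▸ h1.mul h2.inv.2)
  exact ⟨u, by simp [e]⟩

theorem exists_kl (tt : t * t = 1) (tH : t ∉ R.H) (hl : σ l = l) (h0 : l ≠ 0) : ∃ k, R.Sc k l ∧ t * k * t = k⁻¹ := by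
  obtain ⟨k, e1, e2, e3⟩ := c.exists_k tt tH (b := l * l) (by simp [hl]) (by simpa)
  obtain ⟨m, e4, e5⟩ := c.sc_H tt tH e1
  obtain rfl : l = m := sq_inj (by simpa [c.fix_k tt tH e4 e5 e2] using (e5.b rfl e3).2)
  exact ⟨k, e5, e2⟩

variable (h1 : R.Sc k l) (hl : frobq hF l = l) (l1 : l ≠ 1)
include h1 hl l1

theorem cen_le (e : Commute g k) : g ∈ R.H := by
  by_contra hg
  obtain ⟨t, tt, tH, e1, -⟩ := c.swap hg s_mem s_ne
  have e2 : t * g * k * (t * g)⁻¹ = t * k * t := by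
    rw [mul_assoc t, e.eq, mul_inv_rev, inv_eq_of_mul_eq_one_right tt]; group
  obtain ⟨m, -, e3⟩ := c.sc_H tt tH e1
  have e4 := e3.conj h1
  rw [e2] at e4
  rw [c.inv_k tt tH h1 hl (c.sl_mem e4)] at e4
  exact l1 (sq_inj (by rw [mul_one, ← mul_inv_cancel₀ h1.inv.1, ← e4.unique h1.inv.2]))

theorem conj_k (h2 : R.Sc g l) : ∃ u, g = R.i u * k * (R.i u)⁻¹ := by
  choose κ hκ _ using id h1
  obtain ⟨u, rfl⟩ := c.Q_of_eq h2 h1
  have e : ∀ u, R.i (u * (κ u)⁻¹) * k = R.i u * k * (R.i u)⁻¹ := fun u => by rw [map_mul, map_inv, ← hκ]; group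
  obtain ⟨v, rfl⟩ := Finite.injective_iff_surjective.1 (show Function.Injective fun u => u * (κ u)⁻¹ from fun u v h => by
    have := (e u).symm.trans ((congrArg (R.i · * k) h).trans (e v))
    refine (inv_mul_eq_one.1 (h1.fix hl l1 ?_)).symm
    change _ = _
    rw [map_mul, map_inv, mul_assoc, eq_mul_inv_iff_mul_eq.1 this.symm |>.symm]
    group) u
  exact ⟨v, e v⟩

theorem d_eq (e1 : Commute g k) (e2 : Commute h k) (e3 : R.Sc g m) (e4 : R.Sc h m) : g = h := by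
  obtain ⟨u, rfl⟩ := c.Q_of_eq e3 e4
  rw [h1.fix hl l1 (u := u) (by simpa using e1.mul_left e2.inv_left), map_one, one_mul]

variable (tt : t * t = 1) (tH : t ∉ R.H)
include tt tH

theorem exists_d (h0 : m ≠ 0) : ∃ d, Commute d k ∧ R.Sc d m := by
  obtain ⟨κ, w, e1, e2, rfl⟩ := exists_kw (hF := hF) h0
  obtain ⟨k', e3, -⟩ := c.exists_kl tt tH e1 (left_ne_zero_of_mul h0)
  have e4 := e3.mul (sc_j ⟨Units.mk0 w (right_ne_zero_of_mul h0), e2⟩)
  obtain ⟨u, e5⟩ := c.conj_k h1 hl l1 (e4.conj h1)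
  exact ⟨R.i u⁻¹ * _, by change _ = _; rw [mul_assoc, mul_inv_eq_iff_eq_mul.1 e5, map_inv]; group,
    by simpa using (sc_i u⁻¹).mul e4⟩

variable (tk : t * k * t = k⁻¹)
include tk

theorem comm_tgt (e : Commute g k) : Commute (t * g * t) k := by
  simpa only [inv_eq_of_mul_eq_one_right tt, ← tk, mul_inv_rev, mul_assoc, ← mul_assoc t t, tt, one_mul, mul_one, inv_inv] using
    (conj_comm e t).inv_right

theorem exists_tk (w : Wg hF) (hw : (w.1 : F) ≠ 1) :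
    ∃ t k, t * t = 1 ∧ t ∉ R.H ∧ R.Sc k l ∧ t * k * t = k⁻¹ ∧ Commute (R.j w) k := by
  obtain ⟨d, e1, e2⟩ := c.exists_d h1 hl l1 tt tH w.1.ne_zero
  obtain ⟨u, e3⟩ := c.Q_of_eq (sc_j w) e2
  have e0 : (1 + w.1 : F) ≠ 0 := CharTwo.add_eq_zero.not.2 hw.symm
  obtain ⟨x, hx⟩ := exists_a (hF := hF) (u.a / (1 + w.1))
  obtain ⟨v, e4, e5⟩ := e2 x
  have e6 : R.j w = R.i (u * v * x⁻¹) * (R.i x * d * (R.i x)⁻¹) := by simp only [e3, map_mul, map_inv, ← e4]; group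
  have e7 : R.i (u * v * x⁻¹) ∈ R.Z := ⟨_, by
    simp only [mul_a, inv_a, e5, hx, RingHom.id_apply]; field_simp
    linear_combination (u.a + u.a * w.1) * CharTwo.two_eq_zero (R := F), rfl⟩
  have w1 : (w.1 : F) ^ (q + 1) = 1 := by rw [pow_succ', ← frobq_apply hF]; exact w.2
  have e8 : d ^ (q + 1) = 1 := c.eq_one_D tt tH (w1 ▸ e2.pow _)
    (c.cen_le h1 hl l1 (c.comm_tgt h1 hl l1 tt tH tk (e1.pow_left _)))
  have e9 := congrArg (· ^ (q + 1)) e6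
  obtain ⟨n, hn⟩ := even_q hF
  simp only [← map_pow, show w ^ (q + 1) = 1 from Subtype.ext (Units.ext w1), map_one] at e9
  rw [(((sc_i x).conj e2).comm w.2 e7).symm.mul_pow, conj_pow, e8, show q + 1 = n + n + 1 by omega, pow_succ, pow_add, ← (Commute.refl _).mul_pow,
    Z_sq e7] at e9
  rw [show R.i (u * v * x⁻¹) = 1 by simpa using e9.symm, one_mul] at e6
  refine ⟨R.i x * t * (R.i x)⁻¹, R.i x * k * (R.i x)⁻¹, by simp [tt], fun e => tH ?_, (sc_i x).conj h1,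
    by rw [conj_mul, conj_mul, tk, conj_inv], e6 ▸ conj_comm e1 _⟩
  have := c.sl_mem (sc_i x)
  exact (R.H.mul_mem_cancel_left this).1 ((R.H.mul_mem_cancel_right (inv_mem this)).1 e)

omit tt tH tk in
theorem cj_d {w : Wg hF} (hw : (w.1 : F) ≠ 1) (e : Commute (R.j w) k) (e1 : Commute g k) (e2 : R.Sc g m) (u : Qg hF) :
    g * R.i u * g⁻¹ = R.i (act m u) := by
  have e3 : Commute g (R.j w) := c.d_eq h1 hl l1 (e1.mul_left e) (e.mul_left e1) (e2.mul (sc_j w)) (mul_comm m _ ▸ (sc_j w).mul e2)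
  have e0 : (1 + w.1 : F) ≠ 0 := CharTwo.add_eq_zero.not.2 hw.symm
  obtain ⟨x, hx⟩ := exists_a (hF := hF) (u.a / (1 + w.1))
  obtain ⟨v, e4, e5⟩ := e2 x
  obtain ⟨z, e6, -⟩ := e2 (u * (x * act (w.1 : F) x)⁻¹)
  have e7 := e2.b (by simp only [mul_a, inv_a, act_a, hx]; field_simp; linear_combination u.a * CharTwo.two_eq_zero (R := F)) e6
  have : g * R.i u * g⁻¹ = R.i (z * (v * act (w.1 : F) v)) := by
    simp only [map_mul, map_inv, ← e6, ← R.cj, ← e4, ← mul_assoc (R.j w), ← e3.eq]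
    simp only [mul_assoc, e3.inv_inv.eq]; group
  rw [this]
  have w2 : (w.1 : F) * σ w.1 = 1 := w.2
  have e8 : u.a = (1 + w.1) * x.a := by rw [hx, mul_div_cancel₀ _ e0]
  congr 1; ext
  · simp [e7, e5, e8]; ring
  · simp only [e7, e5, e8, w2, mul_b, mul_a, act_a, act_b, inv_a, inv_b, map_add, map_mul, frobq_frobq, map_one, RingHom.id_apply]
    linear_combination (m * σ m * x.a * σ x.a) * w2 +
      (v.b + m * σ m * (σ x.b + x.a * σ x.a * (1 + w.1 + σ w.1))) * CharTwo.two_eq_zero (R := F)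

theorem sc_tgt (e1 : Commute g k) (e2 : R.Sc g m) : R.Sc (t * g * t) (σ m)⁻¹ := by
  have h0 := e2.inv.1
  obtain ⟨κ, w, a1, a2, rfl⟩ := exists_kw (hF := hF) h0
  obtain ⟨d, a3, a4⟩ := c.exists_d h1 hl l1 tt tH (left_ne_zero_of_mul h0)
  obtain ⟨d', a5, a6⟩ := c.exists_d h1 hl l1 tt tH (right_ne_zero_of_mul h0)
  have a7 := fun {g} (e : Commute g k) => c.cen_le h1 hl l1 (c.comm_tgt h1 hl l1 tt tH tk e)
  rw [c.d_eq h1 hl l1 e1 (a3.mul_left a5) e2 (a4.mul a6), mul_assoc, mul_assoc, (c.comm_t tt tH a6 a2 (a7 a5)).eq, ← mul_assoc,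
    ← mul_assoc, c.inv_k tt tH a4 a1 (a7 a3), map_mul, a1, mul_inv, inv_eq_of_mul_eq_one_left a2]
  exact a4.inv.2.mul a6

omit h1 hl l1 tt tH tk in
theorem bn (hq : 2 < q) (hg : g ∉ R.H) : Nonempty (BN hF G) := by
  obtain ⟨t, tt, tH, -⟩ := c.swap hg s_mem s_ne
  obtain ⟨l, hl, l0, l1⟩ := exists_fix (hF := hF) hq
  obtain ⟨k, h1, tk⟩ := c.exists_kl tt tH hl l0
  obtain ⟨w, hw, w1⟩ := exists_w hF
  obtain ⟨t, k, tt, tH, h1, tk, e⟩ := c.exists_tk h1 hl l1 tt tH tk ⟨Units.mk0 w (left_ne_zero_of_mul_eq_one hw), hw⟩ w1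
  choose d d1 d2 using fun m : Fˣ => c.exists_d h1 hl l1 tt tH m.ne_zero
  refine ⟨⟨R.H, R.i, MonoidHom.mk' d fun a b => c.d_eq h1 hl l1 (d1 _) ((d1 a).mul_left (d1 b)) (d2 _) ((d2 a).mul (d2 b)),
    t, R.inj, fun m => c.cj_d h1 hl l1 w1 e (d1 m) (d2 m), tt, fun m n a => c.d_eq h1 hl l1 (c.comm_tgt h1 hl l1 tt tH tk (d1 m))
      (d1 n) (eq_inv_of_mul_eq_one_left a ▸ c.sc_tgt h1 hl l1 tt tH tk (d1 m) (d2 m)) (d2 n), fun h => ⟨fun a => ?_, ?_⟩, tH,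
    fun u a => R.inj ((c.eq_one_D tt tH (sc_i u) a).trans (map_one _).symm), fun g hg => ?_⟩⟩
  · obtain ⟨m, a1, a2⟩ := c.sc_H tt tH a
    obtain ⟨u, a3⟩ := c.Q_of_eq a2 (d2 (Units.mk0 m a1))
    exact ⟨u, _, a3⟩
  · rintro ⟨u, m, rfl⟩
    exact c.sl_mem ((sc_i u).mul (d2 m))
  · obtain ⟨t', tt', tH', a1, -⟩ := c.swap hg s_mem s_ne
    obtain ⟨k', a2, a3⟩ := c.exists_kl tt' tH' hl l0
    obtain ⟨u, rfl⟩ := c.conj_k h1 hl l1 a2
    have a4 := c.cen_le (g := t⁻¹ * (R.i u)⁻¹ * t' * R.i u) h1 hl l1 (by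
      change _ = _
      calc _ = t⁻¹ * (R.i u)⁻¹ * (t' * (R.i u * k * (R.i u)⁻¹) * t') * t'⁻¹ * R.i u := by group
        _ = t⁻¹ * (t * k * t) * (R.i u)⁻¹ * t' * R.i u := by rw [a3, tk, inv_eq_of_mul_eq_one_right tt']; group
        _ = _ := by rw [mul_assoc t, inv_mul_cancel_left, inv_eq_of_mul_eq_one_right tt]; group)
    exact ⟨u, by simpa [mul_assoc, ← mul_assoc t' t', tt'] using mul_mem (mul_mem a4 (inv_mem (c.sl_mem (sc_i u)))) a1⟩

end Cen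

end Md

end Cfsg.Agent.PGU
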